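import Cfsg.Agent.H94.TW

/-!
Index bounds for the iterated cores in the Thompson–Wielandt theorem.
-/
set_option autoImplicit false

namespace Cfsg.Agent.H94

open Cfsg Subgroup

theorem index_iInf_dvd {A ι : Type*} [Group A] [Finite ι] (N : ι → Subgroup A) (hN : ∀ i, (N i).Normal) (k : ℕ)
    (h : ∀ i, (N i).index ∣ k) : (⨅ i, N i).index ∣ k ^ Nat.card ι := by
  classical
  have := Fintype.ofFinite ι
  have key : ∀ s : Finset ι, (⨅ i ∈ s, N i).index ∣ k ^ s.card := by
    intro s
    induction s using Finset.induction_on with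
    | empty => simp
    | insert a s ha ih =>
      rw [Finset.iInf_insert, Finset.card_insert_of_notMem ha, pow_succ]
      rw [← relIndex_mul_index (inf_le_right : N a ⊓ (⨅ i ∈ s, N i) ≤ _), inf_relIndex_right, mul_comm]
      have := hN a
      exact mul_dvd_mul ih ((relIndex_dvd_index_of_normal (N a) _).trans (h a))
  have h1 := key Finset.univ
  simpa using h1

theorem index_core_dvd {H : Type*} [Group H] [Finite H] (K : Subgroup H) : K.normalCore.index ∣ Nat.factorial K.index := by
  classical
  rw [normalCore_eq_ker, index_ker, index_eq_card, ← Nat.card_perm]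
  exact card_subgroup_dvd_card _

theorem card_stab_perm {X : Type*} [Finite X] (x : X) :
    Nat.card (MulAction.stabilizer (Equiv.Perm X) x) = Nat.factorial (Nat.card X - 1) := by
  classical
  have := Fintype.ofFinite X
  have h1 := MulAction.card_orbit_mul_card_stabilizer_eq_card_group (Equiv.Perm X) x
  rw [← Nat.card_eq_fintype_card, ← Nat.card_eq_fintype_card, ← Nat.card_eq_fintype_card] at h1
  have h2 : Nat.card (MulAction.orbit (Equiv.Perm X) x) = Nat.card X := by
    have : MulAction.orbit (Equiv.Perm X) x = Set.univ := by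
      apply Set.eq_univ_of_forall
      intro y
      exact ⟨Equiv.swap x y, by simp⟩
    rw [this]; simp
  rw [h2, Nat.card_perm] at h1
  have h3 : 0 < Nat.card X := @Nat.card_pos X ⟨x⟩ _
  obtain ⟨n, hn⟩ : ∃ n, Nat.card X = n + 1 := ⟨Nat.card X - 1, by omega⟩
  rw [hn, Nat.factorial_succ] at h1
  rw [hn]
  exact Nat.eq_of_mul_eq_mul_left (Nat.succ_pos n) h1

theorem relIndex_core_dvd {H : Type*} [Group H] [Finite H] (K A : Subgroup H) (hA : A ≤ K) :
    K.normalCore.relIndex A ∣ Nat.factorial (K.index - 1) := by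
  classical
  rw [normalCore_eq_ker, relIndex_ker]
  have h1 := card_stab_perm (X := H ⧸ K) ((1 : H) : H ⧸ K)
  rw [← index_eq_card] at h1
  rw [← h1]
  apply card_dvd_of_le
  rintro _ ⟨x, hx, rfl⟩
  rw [MulAction.mem_stabilizer_iff]
  change ((x * 1 : H) : H ⧸ K) = ((1 : H) : H ⧸ K)
  rw [QuotientGroup.eq]
  simpa using hA hx

variable {G : Type*} [Group G] [Finite G]

theorem relIndex_coreIn {M Y : Subgroup G} : (coreIn M Y).relIndex M = (Y.subgroupOf M).normalCore.index := by
  rw [coreIn, relIndex, subgroupOf, comap_map_eq_self_of_injective M.subtype_injective]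

theorem relIndex_coreIn_dvd {M Y : Subgroup G} : (coreIn M Y).relIndex M ∣ Nat.factorial (Y.relIndex M) := by
  rw [relIndex_coreIn]
  exact index_core_dvd _

theorem relIndex_coreIn_dvd' {M Y A : Subgroup G} (hAM : A ≤ M) (hA : A ≤ Y) :
    (coreIn M Y).relIndex A ∣ Nat.factorial (Y.relIndex M - 1) := by
  have h1 := relIndex_core_dvd (Y.subgroupOf M) (A.subgroupOf M) (fun x hx => hA hx)
  have h2 : (coreIn M Y).relIndex A = (Y.subgroupOf M).normalCore.relIndex (A.subgroupOf M) := by
    rw [coreIn, ← relIndex_map_map_of_injective _ _ M.subtype_injective, map_subgroupOf_eq_of_le hAM]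
  rw [h2]
  exact h1

/-- the index of the core of a normal subgroup `Z` of `D` (`A ≤ D`, `A ⊴ M`) -/
theorem relIndex_coreIn_pow {M D A Z : Subgroup G} (hDM : D ≤ M) (hAD : A ≤ D) (hAn : M ≤ normalizer (A : Set G))
    (hZA : Z ≤ A) (hZn : D ≤ normalizer (Z : Set G)) (k : ℕ) (hk : Z.relIndex A ∣ k) :
    (coreIn M Z).relIndex A ∣ k ^ (D.relIndex M) := by
  classical
  -- the conjugates of Z by coset representatives
  let Q := M ⧸ (D.subgroupOf M)
  let f : Q → G := fun c => ((c.out : M) : G)
  let N : Q → Subgroup A := fun c => (Z.map (MulAut.conj (f c)).toMonoidHom).subgroupOf A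
  have hfM : ∀ c, f c ∈ M := fun c => (c.out : M).2
  have hmap : ∀ c, A.map (MulAut.conj (f c)).toMonoidHom = A := by
    intro c
    have h1 := hAn (hfM c)
    ext x
    constructor
    · rintro ⟨y, hy, rfl⟩
      exact (mem_normalizer_iff.mp h1 y).mp hy
    · intro hx
      refine ⟨(f c)⁻¹ * x * f c, ?_, ?_⟩
      · apply (mem_normalizer_iff.mp h1 _).mpr
        have : f c * ((f c)⁻¹ * x * f c) * (f c)⁻¹ = x := by group
        rw [this]; exact hx
      · simp [mul_assoc]
  have hNn : ∀ c, (N c).Normal := by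
    intro c
    have h1 : A ≤ normalizer ((Z.map (MulAut.conj (f c)).toMonoidHom : Subgroup G) : Set G) := by
      have key : ∀ x ∈ A, ∀ y ∈ Z.map (MulAut.conj (f c)).toMonoidHom, x * y * x⁻¹ ∈ Z.map (MulAut.conj (f c)).toMonoidHom := by
        rintro x hx _ ⟨y, hy, rfl⟩
        have hx' := hx
        rw [← hmap c] at hx'
        obtain ⟨w, hw, rfl⟩ := hx'
        have h2 := (mem_normalizer_iff.mp (hZn (hAD hw)) y).mp hy
        exact ⟨w * y * w⁻¹, h2, by simp [mul_assoc]⟩
      intro x hx
      rw [mem_normalizer_iff]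
      intro y
      refine ⟨key x hx y, fun h => ?_⟩
      have := key x⁻¹ (inv_mem hx) _ h
      convert this using 1; group
    have hle : Z.map (MulAut.conj (f c)).toMonoidHom ≤ A := by
      conv_rhs => rw [← hmap c]
      exact map_mono hZA
    exact (normal_subgroupOf_iff_le_normalizer hle).mpr h1
  have hNi : ∀ c, (N c).index ∣ k := by
    intro c
    have h1 : (N c).index = Z.relIndex A := by
      change (Z.map (MulAut.conj (f c)).toMonoidHom).relIndex A = _
      conv_lhs => rw [← hmap c]
      exact relIndex_map_map_of_injective _ _ (MulAut.conj (f c)).injective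
    rw [h1]; exact hk
  have h1 := index_iInf_dvd N hNn k hNi
  have hcard : Nat.card Q = D.relIndex M := by
    rw [relIndex, index_eq_card]
  rw [hcard] at h1
  have h2 : (coreIn M Z).relIndex A = (⨅ c, N c).index := by
    change ((coreIn M Z).subgroupOf A).index = _
    congr 1
    ext x
    rw [mem_subgroupOf, mem_coreIn, mem_iInf]
    constructor
    · rintro ⟨hx, h⟩ c
      rw [mem_subgroupOf]
      have h3 := h (f c)⁻¹ (inv_mem (hfM c))
      rw [inv_inv] at h3
      exact ⟨_, h3, by simp [mul_assoc]⟩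
    · intro h
      refine ⟨hDM (hAD x.2), fun m hm => ?_⟩
      -- coset of m⁻¹
      have h3 := h (QuotientGroup.mk (⟨m⁻¹, inv_mem hm⟩ : M))
      rw [mem_subgroupOf] at h3
      obtain ⟨z, hz, hz'⟩ := h3
      have hz2 : f (QuotientGroup.mk (⟨m⁻¹, inv_mem hm⟩ : M)) * z * (f (QuotientGroup.mk (⟨m⁻¹, inv_mem hm⟩ : M)))⁻¹ = x := hz'
      set g := f (QuotientGroup.mk (⟨m⁻¹, inv_mem hm⟩ : M)) with hg
      have hgD : m * g ∈ D := by
        have h4 : (QuotientGroup.mk (⟨m⁻¹, inv_mem hm⟩ : M) : Q) = QuotientGroup.mk ((QuotientGroup.mk (⟨m⁻¹, inv_mem hm⟩ : M) : Q).out) := by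
          rw [QuotientGroup.out_eq']
        have h5 := (QuotientGroup.eq).mp h4
        rw [mem_subgroupOf] at h5
        have h6 : (((⟨m⁻¹, inv_mem hm⟩ : M)⁻¹ * (QuotientGroup.mk (⟨m⁻¹, inv_mem hm⟩ : M) : Q).out : M) : G) = m * g := by
          rw [hg]; simp [f]
        rwa [h6] at h5
      rw [← hz2]
      have h7 := (mem_normalizer_iff.mp (hZn hgD) z).mp hz
      convert h7 using 1; group
  rw [h2]
  exact h1

/-- The bound. -/
theorem bound {M1 M2 : Subgroup G} (h : TW M1 M2) (d : ℕ) (h1 : (M1 ⊓ M2).relIndex M1 = d) (h2 : (M1 ⊓ M2).relIndex M2 = d) :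
    (coreIn M1 (coreIn M1 (M1 ⊓ M2) ⊓ coreIn M2 (M1 ⊓ M2))).relIndex M1 ∣ Nat.factorial d * (Nat.factorial (d - 1)) ^ d := by
  set D := M1 ⊓ M2 with hD
  set A1 := coreIn M1 D with hA1
  set B1 := coreIn M2 D with hB1
  have hle : coreIn M1 (A1 ⊓ B1) ≤ A1 := (coreIn_le_right _ _).trans inf_le_left
  rw [← relIndex_mul_relIndex _ _ _ hle (coreIn_le_left _ _), mul_comm]
  have hA1D : A1 ≤ D := coreIn_le_right _ _
  refine mul_dvd_mul ?_ ?_
  · have := relIndex_coreIn_dvd (M := M1) (Y := D)
    rwa [h1] at this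
  · have hn1 : D ≤ normalizer (A1 : Set G) := inf_le_left.trans (le_normalizer_coreIn _ _)
    have hn2 : D ≤ normalizer (B1 : Set G) := inf_le_right.trans (le_normalizer_coreIn _ _)
    have hZn : D ≤ normalizer ((A1 ⊓ B1 : Subgroup G) : Set G) := by
      intro x hx
      rw [mem_normalizer_iff]
      intro y
      rw [mem_inf, mem_inf, mem_normalizer_iff.mp (hn1 hx) y, mem_normalizer_iff.mp (hn2 hx) y]
    have h3 := relIndex_coreIn_pow (M := M1) (D := D) (A := A1) (Z := A1 ⊓ B1) inf_le_left hA1D (le_normalizer_coreIn _ _)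
      inf_le_left hZn (Nat.factorial (d - 1)) ?_
    · rwa [h1] at h3
    · rw [inf_relIndex_left]
      have h4 := relIndex_coreIn_dvd' (M := M2) (Y := D) (A := A1) (hA1D.trans inf_le_right) hA1D
      rwa [h2] at h4

/-- The Wielandt situation from a faithful primitive action. -/
theorem wielandt_setup {Ω : Type*} [MulAction G Ω] [FaithfulSMul G Ω] [Finite Ω]
    (hprim : MulAction.IsPreprimitive G Ω) (a b : Ω) (d : ℕ)
    (hd : Nat.card (MulAction.orbit (MulAction.stabilizer G a) b) = d) (h2 : 2 ≤ d) :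
    TW (MulAction.stabilizer G a) (MulAction.stabilizer G b) ∧
    (MulAction.stabilizer G a ⊓ MulAction.stabilizer G b).relIndex (MulAction.stabilizer G a) = d ∧
    (MulAction.stabilizer G a ⊓ MulAction.stabilizer G b).relIndex (MulAction.stabilizer G b) = d ∧
    Nat.card (MulAction.stabilizer G a) = Nat.card (MulAction.stabilizer G b) := by
  have hpre : MulAction.IsPretransitive G Ω := hprim.toIsPretransitive
  obtain ⟨g, hg⟩ := MulAction.exists_smul_eq G a b
  have hconj : MulAction.stabilizer G b = (MulAction.stabilizer G a).map (MulAut.conj g).toMonoidHom := by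
    rw [← hg]; exact MulAction.stabilizer_smul_eq_stabilizer_map_conj g a
  have hcard : Nat.card (MulAction.stabilizer G a) = Nat.card (MulAction.stabilizer G b) := by
    rw [hconj]
    exact Nat.card_congr ((MulAction.stabilizer G a).equivMapOfInjective (MulAut.conj g).toMonoidHom (MulAut.conj g).injective).toEquiv
  have hi1 : (MulAction.stabilizer G a ⊓ MulAction.stabilizer G b).relIndex (MulAction.stabilizer G a) = d := by
    rw [inf_relIndex_left, ← hd, relIndex, index_eq_card]
    have h3 : (MulAction.stabilizer G b).subgroupOf (MulAction.stabilizer G a) = MulAction.stabilizer (MulAction.stabilizer G a) b := by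
      ext x; rfl
    rw [h3]
    exact Nat.card_congr (MulAction.orbitEquivQuotientStabilizer (MulAction.stabilizer G a) b).symm
  have hi2 : (MulAction.stabilizer G a ⊓ MulAction.stabilizer G b).relIndex (MulAction.stabilizer G b) = d := by
    have e1 := card_mul_index ((MulAction.stabilizer G a ⊓ MulAction.stabilizer G b).subgroupOf (MulAction.stabilizer G a))
    have e2 := card_mul_index ((MulAction.stabilizer G a ⊓ MulAction.stabilizer G b).subgroupOf (MulAction.stabilizer G b))
    rw [Nat.card_congr (subgroupOfEquivOfLe (inf_le_left : MulAction.stabilizer G a ⊓ MulAction.stabilizer G b ≤ _)).toEquiv] at e1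
    rw [Nat.card_congr (subgroupOfEquivOfLe (inf_le_right : MulAction.stabilizer G a ⊓ MulAction.stabilizer G b ≤ _)).toEquiv] at e2
    change _ * (MulAction.stabilizer G a ⊓ MulAction.stabilizer G b).relIndex (MulAction.stabilizer G a) = _ at e1
    change _ * (MulAction.stabilizer G a ⊓ MulAction.stabilizer G b).relIndex (MulAction.stabilizer G b) = _ at e2
    rw [hi1, hcard, ← e2] at e1
    have hpos : 0 < Nat.card (↥(MulAction.stabilizer G a ⊓ MulAction.stabilizer G b)) := Nat.card_pos
    exact (Nat.eq_of_mul_eq_mul_left hpos e1).symm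
  have hne : MulAction.stabilizer G a ≠ MulAction.stabilizer G b := by
    intro he
    rw [← he, inf_idem, relIndex_self] at hi1
    omega
  have hab : a ≠ b := fun h => hne (by rw [h])
  have : Nontrivial Ω := ⟨a, b, hab⟩
  refine ⟨TW.of_coatom (MulAction.IsPreprimitive.isCoatom_stabilizer_of_isPreprimitive _ a) g hconj hne ?_, hi1, hi2, hcard⟩
  rw [eq_bot_iff]
  intro x hx
  rw [mem_bot]
  apply FaithfulSMul.eq_of_smul_eq_smul (α := Ω)
  intro w
  obtain ⟨k, hk⟩ := MulAction.exists_smul_eq G w a
  have h3 := hx k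
  rw [MulAction.mem_stabilizer_iff, ← hk, mul_smul, inv_smul_smul, mul_smul] at h3
  rw [one_smul]
  exact (MulAction.injective k) h3

end Cfsg.Agent.H94
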