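import Mathlib
import Cfsg.Agent.H71.MtDef

set_option autoImplicit false
set_option linter.unusedSectionVars false
set_option linter.unusedVariables false

/-!
Piece P4a of S4351: raw coordinates on the natural module of a Suzuki group.
-/

namespace Cfsg.Agent.H94.MtP4a

open Cfsg.Agent.H71.Mt

universe v

variable {X : Type*} [Group X] [Finite X] {F : Type} [Field F] [Fintype F] {θ : F ≃+* F} {S E K : Subgroup X}
  {w s0 : X} {a b κ : X → F}

theorem factor_a (D : SzD θ S E K w s0 a b κ) (f : X → F) (hf : ∀ s ∈ S, ∀ r ∈ S, f (s * r) = f s + f r)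
    (h0 : ∀ e ∈ E, f e = 0) : ∃ A : F →+ F, ∀ s ∈ S, f s = A (a s) := by
  choose σ hσ hσa using D.a_surj
  have key : ∀ s ∈ S, ∀ r ∈ S, a s = a r → f s = f r := by
    intro s hs r hr h
    have h1 : s⁻¹ * r ∈ S := S.mul_mem (S.inv_mem hs) hr
    have h2 := D.a_mul s hs _ h1
    rw [mul_inv_cancel_left, ← h] at h2
    have h3 : a (s⁻¹ * r) = 0 := by
      have : a s + 0 = a s + a (s⁻¹ * r) := by rw [add_zero]; exact h2
      exact (add_left_cancel this).symm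
    have h4 := (D.a_zero _ h1).1 h3
    have h5 := hf s hs _ h1
    rw [mul_inv_cancel_left, h0 _ h4, add_zero] at h5
    exact h5.symm
  refine ⟨{ toFun := fun x => f (σ x), map_zero' := ?_, map_add' := ?_ }, ?_⟩
  · exact h0 _ ((D.a_zero _ (hσ 0)).1 (hσa 0))
  · intro x y
    show f (σ (x + y)) = f (σ x) + f (σ y)
    rw [← hf _ (hσ x) _ (hσ y)]
    apply key _ (hσ _) _ (S.mul_mem (hσ x) (hσ y))
    rw [hσa, D.a_mul _ (hσ x) _ (hσ y), hσa, hσa]
  · intro s hs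
    exact key s hs _ (hσ _) (hσa _).symm

theorem factor_b (D : SzD θ S E K w s0 a b κ) (f : X → F) (hf : ∀ s ∈ E, ∀ r ∈ E, f (s * r) = f s + f r) :
    ∃ A : F →+ F, ∀ s ∈ E, f s = A (b s) := by
  choose σ hσ hσa using D.b_surj
  have key : ∀ s ∈ E, ∀ r ∈ E, b s = b r → s = r := by
    intro s hs r hr h
    have h1 : s⁻¹ * r ∈ E := E.mul_mem (E.inv_mem hs) hr
    have h2 := D.b_mul s hs _ h1
    rw [mul_inv_cancel_left, ← h] at h2
    have h3 : b (s⁻¹ * r) = 0 := by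
      have : b s + 0 = b s + b (s⁻¹ * r) := by rw [add_zero]; exact h2
      exact (add_left_cancel this).symm
    have h4 := (D.b_zero _ h1).1 h3
    exact inv_mul_eq_one.1 h4
  have f1 : f 1 = 0 := by
    have h1 := hf 1 E.one_mem 1 E.one_mem
    rw [mul_one] at h1
    have : f 1 + 0 = f 1 + f 1 := by rw [add_zero]; exact h1
    exact (add_left_cancel this).symm
  refine ⟨{ toFun := fun x => f (σ x), map_zero' := ?_, map_add' := ?_ }, ?_⟩
  · show f (σ 0) = 0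
    rw [(D.b_zero _ (hσ 0)).1 (hσa 0), f1]
  · intro x y
    show f (σ (x + y)) = f (σ x) + f (σ y)
    rw [← hf _ (hσ x) _ (hσ y)]
    congr 1
    apply key _ (hσ _) _ (E.mul_mem (hσ x) (hσ y))
    rw [hσa, D.b_mul _ (hσ x) _ (hσ y), hσa, hσa]
  · intro s hs
    show f s = f (σ (b s))
    rw [← key s hs _ (hσ _) (hσa _).symm]

/-- [P4a] -/
theorem raw (D : SzD θ S E K w s0 a b κ) {V : Type v} [AddCommGroup V] [Module F V] [Finite V]
    (ρ : Representation F X V) (hf : FpfF ρ) (hi : IrrF ρ) {u : V} (hu : u ≠ 0) (hus : ∀ s ∈ S, ρ s u = u)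
    (hu1 : ∀ v : V, (∀ s ∈ S, ρ s v = v) → ∃ c : F, v = c • u)
    (hq1 : ∀ t ∈ E, t ≠ 1 → ∀ v : V, ρ t v = v → ∃ v' : V, v = ρ t v' + v')
    (hq2 : ∀ t ∈ E, ∀ e ∈ E, ∀ v : V, ρ e (ρ t v + v) = ρ t v + v)
    (h4 : Module.finrank F V = 4)
    (h5 : ∀ x ∈ S, ∀ y : V, (∀ t ∈ E, ρ t y = y) → ∃ c : F, ρ x y = y + c • u)
    (h6 : ∀ x ∈ S, x ∉ E → ∀ v : V, ρ x v = v → ∃ c : F, v = c • u)
    (h7 : ∃ y : V, (∀ t ∈ E, ρ t y = y) ∧ (∀ c : F, y ≠ c • u) ∧
      ∀ v : V, (∀ t ∈ E, ρ t v = v) → ∃ c d : F, v = c • u + d • y) :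
    ∃ (v2 v3 : V) (A A' Dd B B' C : F →+ F) (lam mu : X → F),
      (∀ v, ∃ x1 x2 x3 x4 : F, v = x1 • u + x2 • v2 + x3 • v3 + x4 • ρ w u) ∧
      (∀ x1 x2 x3 x4 : F, x1 • u + x2 • v2 + x3 • v3 + x4 • ρ w u = 0 → x1 = 0 ∧ x2 = 0 ∧ x3 = 0 ∧ x4 = 0) ∧
      (∀ s ∈ S, ρ s v2 = v2 + A (a s) • u) ∧ (∀ s ∈ S, ∃ e : F, ρ s v3 = v3 + Dd (a s) • v2 + e • u) ∧
      (∀ s ∈ S, ∃ f g : F, ρ s (ρ w u) = ρ w u + A' (a s) • v3 + f • v2 + g • u) ∧
      (∀ t ∈ E, ρ t v3 = v3 + B (b t) • u) ∧ (∀ t ∈ E, ρ t (ρ w u) = ρ w u + B' (b t) • v2 + C (b t) • u) ∧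
      (∀ x ≠ 0, A x ≠ 0) ∧ (∀ x ≠ 0, A' x ≠ 0) ∧ (∀ x ≠ 0, Dd x ≠ 0) ∧ (∀ x ≠ 0, B x ≠ 0) ∧ (∀ x ≠ 0, B' x ≠ 0) ∧
      (∀ k ∈ K, lam k ≠ 0 ∧ mu k ≠ 0 ∧ ρ k u = lam k • u ∧ ρ k v2 = mu k • v2 ∧ ρ k v3 = (mu k)⁻¹ • v3 ∧
        ρ k (ρ w u) = (lam k)⁻¹ • ρ w u) := by
  classical
  have := D.char
  have two : ∀ v : V, v + v = 0 := fun v => by
    have : (2 : F) • v = 0 := by rw [CharTwo.two_eq_zero, zero_smul]
    rwa [two_smul] at this
  have twoF : ∀ x : F, x + x = 0 := fun x => CharTwo.add_self_eq_zero x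
  have mulρ : ∀ g h v, ρ (g * h) v = ρ g (ρ h v) := fun g h v => by rw [map_mul]; rfl
  have oneρ : ∀ v, ρ 1 v = v := fun v => by rw [map_one]; rfl
  have invρ : ∀ g v, ρ g⁻¹ (ρ g v) = v := fun g v => by rw [← mulρ, inv_mul_cancel, oneρ]
  have ρinv : ∀ g v, ρ g (ρ g⁻¹ v) = v := fun g v => by rw [← mulρ, mul_inv_cancel, oneρ]
  have ww : ∀ v, ρ w (ρ w v) = v := fun v => by rw [← mulρ, D.ww, oneρ]
  -- moving a summand
  have mv : ∀ {x y z : V}, x = y + z → x + y = z := fun {x y z} h => by rw [h, add_comm y z, add_assoc, two, add_zero]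
  have mv' : ∀ {x y z : V}, x + y = z → x = y + z := fun {x y z} h => by
    rw [← h, add_comm x y, ← add_assoc, two, zero_add]
  obtain ⟨y, hyE, hyu, hY⟩ := h7
  obtain ⟨t1, ht1, hbt1⟩ := D.b_surj 1
  have ht11 : t1 ≠ 1 := by
    intro h
    have := (D.b_zero t1 ht1).2 h
    rw [hbt1] at this
    exact one_ne_zero this
  have huE : ∀ t ∈ E, ρ t u = u := fun t ht => hus t (D.ES ht)
  -- the centraliser of an element of `E`
  have hCt : ∀ t ∈ E, t ≠ 1 → ∀ v, ρ t v = v → ∀ e ∈ E, ρ e v = v := by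
    intro t ht ht1 v hv e he
    obtain ⟨v', rfl⟩ := hq1 t ht ht1 v hv
    exact hq2 t ht e he v'
  -- the functional
  have hex : ∀ v, ∃ c d : F, ρ t1 v + v = c • u + d • y := fun v => hY _ (fun t ht => hq2 t1 ht1 t ht v)
  have huniq : ∀ c d : F, c • u + d • y = 0 → c = 0 ∧ d = 0 := by
    intro c d h
    have hd : d = 0 := by
      by_contra hd
      apply hyu (-(d⁻¹ * c))
      have : d⁻¹ • (c • u + d • y) = 0 := by rw [h, smul_zero]
      rw [smul_add, smul_smul, smul_smul, inv_mul_cancel₀ hd, one_smul] at this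
      rw [neg_smul]
      exact (eq_neg_of_add_eq_zero_right this)
    rw [hd, zero_smul, add_zero] at h
    exact ⟨(smul_eq_zero.1 h).resolve_right hu, hd⟩
  -- the space `Z`
  let Z : Submodule F V :=
    { carrier := {v | ∃ c : F, ρ t1 v + v = c • u}
      add_mem' := by
        rintro v v' ⟨c, hc⟩ ⟨c', hc'⟩
        refine ⟨c + c', ?_⟩
        rw [map_add, add_smul, ← hc, ← hc']; abel
      zero_mem' := ⟨0, by simp⟩
      smul_mem' := by
        rintro r v ⟨c, hc⟩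
        exact ⟨r * c, by rw [map_smul, ← smul_add, hc, smul_smul]⟩ }
  have memZ : ∀ v, v ∈ Z ↔ ∃ c : F, ρ t1 v + v = c • u := fun v => Iff.rfl
  have YZ : ∀ v, (∀ t ∈ E, ρ t v = v) → v ∈ Z := fun v hv => ⟨0, by rw [hv t1 ht1, two, zero_smul]⟩
  -- `n_s` commutes with `n_t`
  have hcomm : ∀ s ∈ S, ∀ t ∈ E, ∀ v, ρ t (ρ s v + v) + (ρ s v + v) = ρ s (ρ t v + v) + (ρ t v + v) := by
    intro s hs t ht v
    rw [map_add, map_add, ← mulρ, ← mulρ, D.Ecen t ht s hs]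
    abel
  have Zall : ∀ v ∈ Z, ∀ s ∈ S, ∀ t ∈ E, ρ t (ρ s v + v) = ρ s v + v := by
    intro v hv s hs t ht
    obtain ⟨c, hc⟩ := hv
    have h1 := hcomm s hs t1 ht1 v
    rw [hc, map_smul, hus s hs, two] at h1
    have h2 : ρ t1 (ρ s v + v) = ρ s v + v := by
      have := mv' h1
      rwa [add_zero] at this
    exact hCt t1 ht1 ht11 _ h2 t ht
  have Zt : ∀ v ∈ Z, ∀ t ∈ E, ∃ c : F, ρ t v + v = c • u := by
    intro v hv t ht
    apply hu1
    intro s hs
    have h1 := hcomm s hs t ht v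
    have h2 := Zall v hv s hs t ht
    rw [h2, two] at h1
    have := mv' h1.symm
    rwa [add_zero] at this
  have Zof : ∀ v, ∀ t ∈ E, t ≠ 1 → (∃ c : F, ρ t v + v = c • u) → v ∈ Z := by
    intro v t ht htne ⟨c, hc⟩
    -- all `n_s v` are in `Y`
    have h1 : ∀ s ∈ S, ∀ e ∈ E, ρ e (ρ s v + v) = ρ s v + v := by
      intro s hs e he
      have h2 := hcomm s hs t ht v
      rw [hc, map_smul, hus s hs, two] at h2
      have h3 := mv' h2
      rw [add_zero] at h3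
      exact hCt t ht htne _ h3 e he
    rw [memZ]
    apply hu1
    intro s hs
    have h2 := hcomm s hs t1 ht1 v
    rw [h1 s hs t1 ht1, two] at h2
    have := mv' h2.symm
    rwa [add_zero] at this
  -- the action of `K`
  have hKY : ∀ k ∈ K, ∀ v, (∀ t ∈ E, ρ t v = v) → ∀ t ∈ E, ρ t (ρ k v) = ρ k v := by
    intro k hk v hv t ht
    have h1 : k⁻¹ * t * k ∈ E := by
      have := D.KE k⁻¹ (K.inv_mem hk) t ht
      rwa [inv_inv] at this
    have h2 := hv _ h1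
    rw [← mulρ]
    have h3 : t * k = k * (k⁻¹ * t * k) := by group
    rw [h3, mulρ, h2]
  have hKu : ∀ k ∈ K, ∃ c : F, ρ k u = c • u := by
    intro k hk
    apply hu1
    intro s hs
    have h1 : k⁻¹ * s * k ∈ S := by
      have := D.KS k⁻¹ (K.inv_mem hk) s hs
      rwa [inv_inv] at this
    rw [← mulρ]
    have h3 : s * k = k * (k⁻¹ * s * k) := by group
    rw [h3, mulρ, hus _ h1]
  have hkw : ∀ k ∈ K, ∀ v, ρ k (ρ w v) = ρ w (ρ k⁻¹ v) := by
    intro k hk v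
    rw [← mulρ, ← mulρ]
    congr 2
    have := D.wK k hk
    calc k * w = (w * w) * k * w := by rw [D.ww, one_mul]
      _ = w * (w * k * w) := by group
      _ = w * k⁻¹ := by rw [this]
  have hKZ : ∀ k ∈ K, ∀ v ∈ Z, ρ k v ∈ Z := by
    intro k hk v hv
    have h1 : k * t1 * k⁻¹ ∈ E := D.KE k hk t1 ht1
    have h1' : k⁻¹ * t1 * k ∈ E := by
      have := D.KE k⁻¹ (K.inv_mem hk) t1 ht1
      rwa [inv_inv] at this
    obtain ⟨c, hc⟩ := Zt v hv _ h1'
    obtain ⟨d, hd⟩ := hKu k hk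
    refine ⟨c * d, ?_⟩
    have h3 : t1 * k = k * (k⁻¹ * t1 * k) := by group
    rw [← mulρ, h3, mulρ, ← map_add, hc, map_smul, hd, smul_smul]
  -- `w u` is not in `Z`
  have hwu : ρ w u ∉ Z := by
    intro hw
    have hSZ : ∀ s ∈ S, ∀ v ∈ Z, ρ s v ∈ Z := by
      intro s hs v hv
      have h1 := YZ _ (fun t ht => Zall v hv s hs t ht)
      have h2 : ρ s v = v + (ρ s v + v) := mv' rfl
      rw [h2]
      exact Z.add_mem hv h1
    let W : Submodule F V := Submodule.span F (Set.range fun g : X => ρ g u)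
    have hWinv : ∀ g : X, ∀ v ∈ W, ρ g v ∈ W := by
      intro g v hv
      have : W ≤ W.comap (ρ g) := by
        apply Submodule.span_le.2
        rintro _ ⟨h, rfl⟩
        show ρ g (ρ h u) ∈ W
        rw [← mulρ]
        exact Submodule.subset_span ⟨g * h, rfl⟩
      exact this hv
    have huW : u ∈ W := Submodule.subset_span ⟨1, oneρ u⟩
    have hWtop : W = ⊤ := by
      rcases hi.2 W hWinv with h | h
      · exfalso
        rw [h, Submodule.mem_bot] at huW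
        exact hu huW
      · exact h
    have hWZ : W ≤ Z := by
      apply Submodule.span_le.2
      rintro _ ⟨g, rfl⟩
      show ρ g u ∈ Z
      rcases D.bruhat g with ⟨s, hs, k, hk, rfl⟩ | ⟨s, hs, k, hk, r, hr, rfl⟩
      · rw [mulρ]
        exact hSZ s hs _ (hKZ k hk _ (YZ _ huE))
      · rw [mulρ, mulρ, mulρ, hus r hr]
        exact hSZ s hs _ (hKZ k hk _ hw)
    obtain ⟨v', hv'⟩ := hq1 t1 ht1 ht11 y (hyE t1 ht1)
    have h1 : v' ∈ Z := hWZ (by rw [hWtop]; trivial)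
    obtain ⟨c, hc⟩ := h1
    exact hyu c (by rw [← hc]; exact hv')
  -- the vector `v2`
  obtain ⟨c0, d0, h0⟩ := hex (ρ w u)
  have hd0 : d0 ≠ 0 := by
    rintro rfl
    apply hwu
    exact ⟨c0, by rw [h0, zero_smul, add_zero]⟩
  obtain ⟨c1, d1, h1⟩ := hex (ρ w y)
  set α := d1 / d0 with hα
  set v2 := y + α • u with hv2
  have hv2E : ∀ t ∈ E, ρ t v2 = v2 := fun t ht => by rw [hv2, map_add, map_smul, hyE t ht, huE t ht]
  have hv2u : ∀ c : F, v2 ≠ c • u := by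
    intro c hc
    apply hyu (c - α)
    rw [sub_smul, ← hc, hv2]; abel
  set v3 := ρ w v2 with hv3
  have hv3Z : v3 ∈ Z := by
    refine ⟨c1 + α * c0, ?_⟩
    have e1 : ρ t1 v3 + v3 = (ρ t1 (ρ w y) + ρ w y) + α • (ρ t1 (ρ w u) + ρ w u) := by
      rw [hv3, hv2, map_add, map_smul, map_add, map_smul, smul_add]; abel
    rw [e1, h0, h1]
    have e2 : c1 • u + d1 • y + α • (c0 • u + d0 • y) = (c1 + α * c0) • u + (d1 + α * d0) • y := by module
    rw [e2, hα, div_mul_cancel₀ _ hd0, twoF, zero_smul, add_zero]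
  have hYv : ∀ v, (∀ t ∈ E, ρ t v = v) → ∃ c d : F, v = c • u + d • v2 := by
    intro v hv
    obtain ⟨c, d, rfl⟩ := hY v hv
    refine ⟨c - d * α, d, ?_⟩
    rw [hv2]; module
  have huniq2 : ∀ c d : F, c • u + d • v2 = 0 → c = 0 ∧ d = 0 := by
    intro c d h
    have h1 : (c + d * α) • u + d • y = 0 := by rw [← h, hv2]; module
    obtain ⟨h2, h3⟩ := huniq _ _ h1
    rw [h3, zero_mul, add_zero] at h2
    exact ⟨h2, h3⟩
  -- intersection with the conjugate
  have hint : ∀ v, (∀ t ∈ E, ρ t v = v) → (∀ t ∈ E, ρ t (ρ w v) = ρ w v) → v = 0 := by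
    intro v hv hv'
    have ht0 : s0 * s0 ∈ E := D.Ssq s0 D.s0S
    apply hf ((s0 * s0 * w) * (s0 * s0 * w))
    · have h1 : ((s0 * s0 * w) * (s0 * s0 * w)) ^ 5 = 1 := by
        rw [← pow_two, ← pow_mul, mul_comm, pow_mul, D.x0five, one_pow]
      exact Odd.of_dvd_nat (by decide) (orderOf_dvd_of_pow_eq_one h1)
    · intro h1
      apply D.x0ne
      have h2 := D.x0five
      have h3 : (s0 * s0 * w) ^ 5 = ((s0 * s0 * w) * (s0 * s0 * w)) * ((s0 * s0 * w) * (s0 * s0 * w)) * (s0 * s0 * w) := by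
        rw [pow_succ, pow_succ, pow_succ, pow_succ, pow_one]; group
      rw [h3, h1, one_mul, one_mul] at h2
      exact h2
    · rw [mulρ, mulρ (s0 * s0) w v, hv' _ ht0, mulρ, ww, hv _ ht0]
  have hindep : ∀ x1 x2 x3 x4 : F, x1 • u + x2 • v2 + x3 • v3 + x4 • ρ w u = 0 → x1 = 0 ∧ x2 = 0 ∧ x3 = 0 ∧ x4 = 0 := by
    intro x1 x2 x3 x4 h
    have e1 : ρ w (x4 • u + x3 • v2) = x3 • v3 + x4 • ρ w u := by
      rw [map_add, map_smul, map_smul]; abel
    have e2 : x1 • u + x2 • v2 = ρ w (x4 • u + x3 • v2) := by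
      rw [e1]
      have h' : (x1 • u + x2 • v2) + (x3 • v3 + x4 • ρ w u) = 0 := by rw [← h]; abel
      have := mv' h'
      rwa [add_zero] at this
    have hE' : ∀ c d : F, ∀ t ∈ E, ρ t (c • u + d • v2) = c • u + d • v2 := by
      intro c d t ht
      rw [map_add, map_smul, map_smul, huE t ht, hv2E t ht]
    have e3 : x4 • u + x3 • v2 = 0 := by
      apply hint _ (hE' _ _)
      intro t ht
      rw [← e2, hE' _ _ t ht]
    rw [e3, map_zero] at e2
    obtain ⟨q1, q2⟩ := huniq2 _ _ e2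
    obtain ⟨q3, q4⟩ := huniq2 _ _ e3
    exact ⟨q1, q2, q4, q3⟩
  have hspan : ∀ v, ∃ x1 x2 x3 x4 : F, v = x1 • u + x2 • v2 + x3 • v3 + x4 • ρ w u := by
    have hli : LinearIndependent F ![u, v2, v3, ρ w u] := by
      rw [Fintype.linearIndependent_iff]
      intro g hg
      rw [Fin.sum_univ_four] at hg
      obtain ⟨q1, q2, q3, q4⟩ := hindep (g 0) (g 1) (g 2) (g 3) hg
      intro i
      fin_cases i
      · exact q1
      · exact q2
      · exact q3
      · exact q4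
    haveI : FiniteDimensional F V := FiniteDimensional.of_finrank_pos (by rw [h4]; norm_num)
    have hsp := hli.span_eq_top_of_card_eq_finrank' (by rw [h4, Fintype.card_fin])
    intro v
    have hv : v ∈ Submodule.span F (Set.range ![u, v2, v3, ρ w u]) := by rw [hsp]; trivial
    obtain ⟨c, hc⟩ := (Submodule.mem_span_range_iff_exists_fun F).1 hv
    rw [Fin.sum_univ_four] at hc
    exact ⟨c 0, c 1, c 2, c 3, hc.symm⟩
  have hwuY : ∀ x : F, x • ρ w u ∈ Z → x = 0 := by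
    intro x hx
    by_contra hx0
    apply hwu
    have := Z.smul_mem x⁻¹ hx
    rwa [smul_smul, inv_mul_cancel₀ hx0, one_smul] at this
  have huZ : u ∈ Z := YZ u huE
  have hv2Z : v2 ∈ Z := YZ v2 hv2E
  have hZsp : ∀ v ∈ Z, ∃ x1 x2 x3 : F, v = x3 • v3 + x2 • v2 + x1 • u := by
    intro v hv
    obtain ⟨x1, x2, x3, x4, rfl⟩ := hspan v
    have h1 : x4 • ρ w u ∈ Z := by
      have h2 : x4 • ρ w u = (x1 • u + x2 • v2 + x3 • v3 + x4 • ρ w u) - (x1 • u + x2 • v2 + x3 • v3) := by abel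
      rw [h2]
      exact Z.sub_mem hv (Z.add_mem (Z.add_mem (Z.smul_mem _ huZ) (Z.smul_mem _ hv2Z)) (Z.smul_mem _ hv3Z))
    refine ⟨x1, x2, x3, ?_⟩
    rw [hwuY x4 h1, zero_smul]; abel
  have hv3Y : ¬ ∀ t ∈ E, ρ t v3 = v3 := by
    intro h
    have := hint v2 hv2E h
    exact hv2u 0 (by rw [this, zero_smul])
  -- eigenvalues
  have hKv2 : ∀ k ∈ K, ∃ c : F, ρ k v2 = c • v2 := by
    intro k hk
    obtain ⟨c, d, hcd⟩ := hYv _ (hKY k hk v2 hv2E)
    have h1 : ρ w (ρ k v2) ∈ Z := by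
      have h2 := hkw k⁻¹ (K.inv_mem hk) v2
      rw [inv_inv] at h2
      rw [← h2]
      exact hKZ _ (K.inv_mem hk) _ hv3Z
    rw [hcd, map_add, map_smul, map_smul] at h1
    have h3 : c • ρ w u ∈ Z := by
      have : c • ρ w u = (c • ρ w u + d • ρ w v2) - d • ρ w v2 := by abel
      rw [this]
      exact Z.sub_mem h1 (Z.smul_mem _ hv3Z)
    exact ⟨d, by rw [hcd, hwuY c h3, zero_smul, zero_add]⟩
  choose! lam hlam using hKu
  choose! mu hmu using hKv2
  have inj : ∀ g : X, ∀ v, ρ g v = 0 → v = 0 := fun g v h => by rw [← invρ g v, h, map_zero]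
  have hv20 : v2 ≠ 0 := fun h => hv2u 0 (by rw [h, zero_smul])
  have hlam0 : ∀ k ∈ K, lam k ≠ 0 := fun k hk h => hu (inj k u (by rw [hlam k hk, h, zero_smul]))
  have hmu0 : ∀ k ∈ K, mu k ≠ 0 := fun k hk h => hv20 (inj k v2 (by rw [hmu k hk, h, zero_smul]))
  have hinve : ∀ k, ∀ v : V, ∀ c : F, c ≠ 0 → ρ k v = c • v → ρ k⁻¹ v = c⁻¹ • v := by
    intro k v c hc h
    have h1 := invρ k v
    rw [h, map_smul] at h1
    rw [← h1, smul_smul, h1, inv_mul_cancel₀ hc, one_smul]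
  -- coefficients on `v2`
  have hA' : ∀ s ∈ S, ∃ c : F, ρ s v2 = v2 + c • u := fun s hs => h5 s hs v2 hv2E
  choose! fA hfA using hA'
  have cu : ∀ c d : F, c • u = d • u → c = d := fun c d h => by
    have : (c - d) • u = 0 := by rw [sub_smul, h, sub_self]
    exact sub_eq_zero.1 ((smul_eq_zero.1 this).resolve_right hu)
  have hfAm : ∀ s ∈ S, ∀ r ∈ S, fA (s * r) = fA s + fA r := by
    intro s hs r hr
    apply cu
    have h1 := hfA _ (S.mul_mem hs hr)
    rw [mulρ, hfA r hr, map_add, map_smul, hus s hs, hfA s hs, add_assoc] at h1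
    rw [add_smul]
    exact (add_left_cancel h1).symm
  have hfA0 : ∀ e ∈ E, fA e = 0 := by
    intro e he
    have h1 := hfA e (D.ES he)
    rw [hv2E e he] at h1
    have h2 : v2 + 0 = v2 + fA e • u := by rw [add_zero]; exact h1
    exact (smul_eq_zero.1 (add_left_cancel h2).symm).resolve_right hu
  obtain ⟨A, hA⟩ := factor_a D fA hfAm hfA0
  have hAne : ∀ s ∈ S, s ∉ E → fA s ≠ 0 := by
    intro s hs hsE h
    have h1 := hfA s hs
    rw [h, zero_smul, add_zero] at h1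
    obtain ⟨c, hc⟩ := h6 s hs hsE v2 h1
    exact hv2u c hc
  -- coefficients on `v3`
  have hD' : ∀ s ∈ S, ∃ d e : F, ρ s v3 = v3 + d • v2 + e • u := by
    intro s hs
    obtain ⟨c, d, hcd⟩ := hYv _ (fun t ht => Zall v3 hv3Z s hs t ht)
    refine ⟨d, c, ?_⟩
    have := mv' hcd
    rw [this]; abel
  choose! fD fe hfD using hD'
  have hfDm : ∀ s ∈ S, ∀ r ∈ S, fD (s * r) = fD s + fD r := by
    intro s hs r hr
    have h1 := hfD _ (S.mul_mem hs hr)
    rw [mulρ, hfD r hr, map_add, map_add, map_smul, map_smul, hus s hs, hfD s hs, hfA s hs] at h1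
    have h2 : (fe s + fD r * fA s + fe r - fe (s * r)) • u + (fD s + fD r - fD (s * r)) • v2 = 0 := by
      have h3 : (fe s + fD r * fA s + fe r - fe (s * r)) • u + (fD s + fD r - fD (s * r)) • v2 =
          (v3 + fD s • v2 + fe s • u + fD r • (v2 + fA s • u) + fe r • u) - (v3 + fD (s * r) • v2 + fe (s * r) • u) := by module
      rw [h3, h1, sub_self]
    exact (sub_eq_zero.1 (huniq2 _ _ h2).2).symm
  have hfD0 : ∀ e ∈ E, fD e = 0 := by
    intro e he
    have h1 := hfD e (D.ES he)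
    obtain ⟨c, hc⟩ := Zt v3 hv3Z e he
    have h2 := mv' hc
    have h3 : (c - fe e) • u + (-fD e) • v2 = 0 := by
      have : (c - fe e) • u + (-fD e) • v2 = (v3 + c • u) - (v3 + fD e • v2 + fe e • u) := by module
      rw [this, ← h1, ← h2, sub_self]
    exact neg_eq_zero.1 (huniq2 _ _ h3).2
  obtain ⟨Dd, hDd⟩ := factor_a D fD hfDm hfD0
  have hDne : ∀ s ∈ S, s ∉ E → fD s ≠ 0 := by
    intro s hs hsE h
    have h1 := hfD s hs
    rw [h, zero_smul, add_zero] at h1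
    have hA0 := hAne s hs hsE
    have h2 : ρ s (v3 - (fe s / fA s) • v2) = v3 - (fe s / fA s) • v2 := by
      rw [map_sub, map_smul, h1, hfA s hs, smul_add, smul_smul, div_mul_cancel₀ _ hA0]; abel
    obtain ⟨c, hc⟩ := h6 s hs hsE _ h2
    have h3 : (-c) • u + (-(fe s / fA s)) • v2 + (1 : F) • v3 + (0 : F) • ρ w u = 0 := by
      have : (-c) • u + (-(fe s / fA s)) • v2 + (1 : F) • v3 + (0 : F) • ρ w u = (v3 - (fe s / fA s) • v2) - c • u := by module
      rw [this, hc, sub_self]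
    exact one_ne_zero (hindep _ _ _ _ h3).2.2.1
  -- `E` on `v3`
  have hB' : ∀ t ∈ E, ∃ c : F, ρ t v3 = v3 + c • u := by
    intro t ht
    obtain ⟨c, hc⟩ := Zt v3 hv3Z t ht
    exact ⟨c, mv' hc⟩
  choose! fB hfB using hB'
  obtain ⟨B, hB⟩ := factor_b D fB (by
    intro s hs r hr
    apply cu
    have h1 := hfB _ (E.mul_mem hs hr)
    rw [mulρ, hfB r hr, map_add, map_smul, huE s hs, hfB s hs, add_assoc] at h1
    rw [add_smul]
    exact (add_left_cancel h1).symm)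
  -- `w u`
  have hG' : ∀ s ∈ S, ∃ x f g : F, ρ s (ρ w u) = ρ w u + x • v3 + f • v2 + g • u := by
    intro s hs
    have h1 : ρ s (ρ w u) + ρ w u ∈ Z := by
      have h2 := hcomm s hs t1 ht1 (ρ w u)
      have h3 : ∀ t ∈ E, ρ t (ρ t1 (ρ w u) + ρ w u) = ρ t1 (ρ w u) + ρ w u := fun t ht => hq2 t1 ht1 t ht _
      obtain ⟨c, hc⟩ := h5 s hs _ h3
      have h4' : ρ s (ρ t1 (ρ w u) + ρ w u) + (ρ t1 (ρ w u) + ρ w u) = c • u := by
        rw [hc, add_comm _ (c • u), add_assoc, two, add_zero]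
      exact ⟨c, by rw [h2, h4']⟩
    obtain ⟨x1, x2, x3, h⟩ := hZsp _ h1
    refine ⟨x3, x2, x1, ?_⟩
    have := mv' h
    rw [this]; abel
  choose! fx ff fg hfx using hG'
  have h4uniq : ∀ x1 x2 x3 : F, x3 • v3 + x2 • v2 + x1 • u = 0 → x1 = 0 ∧ x2 = 0 ∧ x3 = 0 := by
    intro x1 x2 x3 h
    have h1 : x1 • u + x2 • v2 + x3 • v3 + (0 : F) • ρ w u = 0 := by rw [zero_smul, add_zero, ← h]; abel
    obtain ⟨q1, q2, q3, -⟩ := hindep _ _ _ _ h1
    exact ⟨q1, q2, q3⟩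
  have hfxm : ∀ s ∈ S, ∀ r ∈ S, fx (s * r) = fx s + fx r := by
    intro s hs r hr
    have h1 := hfx _ (S.mul_mem hs hr)
    rw [mulρ, hfx r hr, map_add, map_add, map_add, map_smul, map_smul, map_smul, hus s hs, hfx s hs, hfA s hs, hfD s hs] at h1
    have h2 : (fx s + fx r - fx (s * r)) • v3 + (ff s + fx r * fD s + ff r - ff (s * r)) • v2 +
        (fg s + fx r * fe s + ff r * fA s + fg r - fg (s * r)) • u = 0 := by
      have h3 : (fx s + fx r - fx (s * r)) • v3 + (ff s + fx r * fD s + ff r - ff (s * r)) • v2 +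
        (fg s + fx r * fe s + ff r * fA s + fg r - fg (s * r)) • u =
          (ρ w u + fx s • v3 + ff s • v2 + fg s • u + fx r • (v3 + fD s • v2 + fe s • u) + ff r • (v2 + fA s • u) + fg r • u) -
          (ρ w u + fx (s * r) • v3 + ff (s * r) • v2 + fg (s * r) • u) := by module
      rw [h3, h1, sub_self]
    exact (sub_eq_zero.1 (h4uniq _ _ _ h2).2.2).symm
  -- `E` on `w u`
  have hC' : ∀ t ∈ E, ∃ c d : F, ρ t (ρ w u) = ρ w u + d • v2 + c • u := by
    intro t ht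
    obtain ⟨c, d, hcd⟩ := hYv _ (fun e he => hq2 t ht e he (ρ w u))
    refine ⟨c, d, ?_⟩
    have := mv' hcd
    rw [this]; abel
  choose! fC fB' hfC using hC'
  have hfx0 : ∀ e ∈ E, fx e = 0 := by
    intro e he
    have h1 := hfx e (D.ES he)
    rw [hfC e he] at h1
    have h2 : (fx e) • v3 + (ff e - fB' e) • v2 + (fg e - fC e) • u = 0 := by
      have h3 : (fx e) • v3 + (ff e - fB' e) • v2 + (fg e - fC e) • u =
          (ρ w u + fx e • v3 + ff e • v2 + fg e • u) - (ρ w u + fB' e • v2 + fC e • u) := by module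
      rw [h3, ← h1, sub_self]
    exact (h4uniq _ _ _ h2).2.2
  obtain ⟨A', hA'⟩ := factor_a D fx hfxm hfx0
  have hEm : ∀ s ∈ E, ∀ r ∈ E, fB' (s * r) = fB' s + fB' r ∧ fC (s * r) = fC s + fC r := by
    intro s hs r hr
    have h1 := hfC _ (E.mul_mem hs hr)
    rw [mulρ, hfC r hr, map_add, map_add, map_smul, map_smul, huE s hs, hv2E s hs, hfC s hs] at h1
    have h2 : (fC s + fC r - fC (s * r)) • u + (fB' s + fB' r - fB' (s * r)) • v2 = 0 := by
      have h3 : (fC s + fC r - fC (s * r)) • u + (fB' s + fB' r - fB' (s * r)) • v2 =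
          (ρ w u + fB' s • v2 + fC s • u + fB' r • v2 + fC r • u) - (ρ w u + fB' (s * r) • v2 + fC (s * r) • u) := by module
      rw [h3, h1, sub_self]
    obtain ⟨q1, q2⟩ := huniq2 _ _ h2
    exact ⟨(sub_eq_zero.1 q2).symm, (sub_eq_zero.1 q1).symm⟩
  obtain ⟨B', hB'⟩ := factor_b D fB' (fun s hs r hr => (hEm s hs r hr).1)
  obtain ⟨C, hC⟩ := factor_b D fC (fun s hs r hr => (hEm s hs r hr).2)
  have hsE : ∀ s ∈ S, a s ≠ 0 → s ∉ E := fun s hs h hE => h ((D.a_zero s hs).2 hE)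
  have htne : ∀ t ∈ E, b t ≠ 0 → t ≠ 1 := fun t ht h h1 => h ((D.b_zero t ht).2 h1)
  refine ⟨v2, v3, A, A', Dd, B, B', C, lam, mu, hspan, hindep, fun s hs => by rw [← hA s hs, hfA s hs],
    fun s hs => ⟨fe s, by rw [← hDd s hs, ← hfD s hs]⟩, fun s hs => ⟨ff s, fg s, by rw [← hA' s hs, ← hfx s hs]⟩,
    fun t ht => by rw [← hB t ht, hfB t ht], fun t ht => by rw [← hB' t ht, ← hC t ht, ← hfC t ht], ?_, ?_, ?_, ?_, ?_, ?_⟩
  · intro x hx
    obtain ⟨s, hs, rfl⟩ := D.a_surj x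
    rw [← hA s hs]
    exact hAne s hs (hsE s hs hx)
  · intro x hx
    obtain ⟨s, hs, rfl⟩ := D.a_surj x
    rw [← hA' s hs]
    intro h0'
    have h1 := hfx s hs
    rw [h0', zero_smul, add_zero] at h1
    have hss : s * s ∈ E := D.Ssq s hs
    have hss1 : s * s ≠ 1 := by
      apply htne _ hss
      rw [D.b_sq s hs]
      exact mul_ne_zero hx (fun h => hx (by
        have := congrArg θ.symm h
        rwa [RingEquiv.symm_apply_apply, map_zero] at this))
    apply hwu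
    apply Zof _ _ hss hss1
    refine ⟨ff s * fA s, ?_⟩
    rw [mulρ, h1, map_add, map_add, map_smul, map_smul, hus s hs, h1, hfA s hs]
    have e1 : ρ w u + ff s • v2 + fg s • u + ff s • (v2 + fA s • u) + fg s • u + ρ w u =
        (ρ w u + ρ w u) + (ff s • v2 + ff s • v2) + (fg s • u + fg s • u) + (ff s * fA s) • u := by
      module
    rw [e1]
    simp only [two, zero_add]
  · intro x hx
    obtain ⟨s, hs, rfl⟩ := D.a_surj x
    rw [← hDd s hs]
    exact hDne s hs (hsE s hs hx)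
  · intro x hx
    obtain ⟨t, ht, rfl⟩ := D.b_surj x
    rw [← hB t ht]
    intro h0'
    have h1 := hfB t ht
    rw [h0', zero_smul, add_zero] at h1
    exact hv3Y (hCt t ht (htne t ht hx) _ h1)
  · intro x hx
    obtain ⟨t, ht, rfl⟩ := D.b_surj x
    rw [← hB' t ht]
    intro h0'
    have h1 := hfC t ht
    rw [h0', zero_smul, add_zero] at h1
    exact hwu (Zof _ t ht (htne t ht hx) ⟨fC t, mv h1⟩)
  · intro k hk
    refine ⟨hlam0 k hk, hmu0 k hk, hlam k hk, hmu k hk, ?_, ?_⟩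
    · rw [hv3, hkw k hk, hinve k v2 _ (hmu0 k hk) (hmu k hk), map_smul]
    · rw [hkw k hk, hinve k u _ (hlam0 k hk) (hlam k hk), map_smul]

end Cfsg.Agent.H94.MtP4a
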