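import Cfsg.Agent.Solv.MinNormal
import Mathlib.Combinatorics.SimpleGraph.Extremal.Turan

set_option autoImplicit false
open Subgroup
open scoped commutatorElement

namespace Cfsg.Agent.H94.LeadPos

variable {P : Type*} [Group P]

/-- subgroup generated by the first `i` members of a sequence -/
def Bn (b : ℕ → P) (i : ℕ) : Subgroup P := closure (b '' {l | l < i})

theorem mem_Bn {b : ℕ → P} {i l : ℕ} (h : l < i) : b l ∈ Bn b i := subset_closure ⟨l, h, rfl⟩

theorem Bn_mono {b : ℕ → P} {i j : ℕ} (h : i ≤ j) : Bn b i ≤ Bn b j :=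
  closure_mono (Set.image_mono fun _ hl => lt_of_lt_of_le hl h)

theorem Bn_zero (b : ℕ → P) : Bn b 0 = ⊥ := by
  rw [Bn, closure_eq_bot_iff]
  rintro _ ⟨l, hl, rfl⟩
  exact absurd hl (Nat.not_lt_zero l)

theorem Bn_succ (b : ℕ → P) (i : ℕ) : Bn b (i + 1) = zpowers (b i) ⊔ Bn b i := by
  rw [Bn, Bn, zpowers_eq_closure, ← Subgroup.closure_union]
  congr 1
  ext x
  constructor
  · rintro ⟨l, hl, rfl⟩
    rcases Nat.lt_succ_iff_lt_or_eq.1 hl with h | rfl
    · exact Or.inr ⟨l, h, rfl⟩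
    · exact Or.inl rfl
  · rintro (h | ⟨l, hl, rfl⟩)
    · exact ⟨i, Nat.lt_succ_self i, h.symm⟩
    · exact ⟨l, Nat.lt_succ_of_lt hl, rfl⟩

theorem Bn_congr {b b' : ℕ → P} {i : ℕ} (h : ∀ l < i, b l = b' l) : Bn b i = Bn b' i := by
  rw [Bn, Bn]
  congr 1
  ext x
  constructor
  · rintro ⟨l, hl, rfl⟩; exact ⟨l, hl, (h l hl).symm⟩
  · rintro ⟨l, hl, rfl⟩; exact ⟨l, hl, h l hl⟩

/-- adapted sequence -/
structure Adapted (p e : ℕ) (b : ℕ → P) : Prop where
  comm : ∀ u ∈ Bn b e, ∀ v ∈ Bn b e, u * v = v * u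
  exp : ∀ u ∈ Bn b e, u ^ p = 1
  stab : ∀ l < e, ∀ g : P, ⁅g, b l⁆ ∈ Bn b l
  notMem : ∀ l < e, b l ∉ Bn b l

namespace Adapted

variable {p e : ℕ} {b : ℕ → P}

theorem conj_mem (h : Adapted p e b) {i : ℕ} (hi : i ≤ e) (g : P) {u : P} (hu : u ∈ Bn b i) :
    g * u * g⁻¹ ∈ Bn b i := by
  have h1 : (Bn b i).map (MulAut.conj g).toMonoidHom ≤ Bn b i := by
    rw [Bn, MonoidHom.map_closure, closure_le]
    rintro _ ⟨_, ⟨l, hl, rfl⟩, rfl⟩
    have h2 : g * b l * g⁻¹ = ⁅g, b l⁆ * b l := by rw [commutatorElement_def]; group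
    show g * b l * g⁻¹ ∈ Bn b i
    rw [h2]
    have hl' : l < i := hl
    exact mul_mem (Bn_mono hl'.le (h.stab l (lt_of_lt_of_le hl' hi) g)) (mem_Bn hl')
  exact h1 ⟨u, hu, rfl⟩

theorem normal (h : Adapted p e b) {i : ℕ} (hi : i ≤ e) : (Bn b i).Normal :=
  ⟨fun _ hu g => h.conj_mem hi g hu⟩

theorem comm_mem (h : Adapted p e b) {i : ℕ} (hi : i ≤ e) (g : P) {u : P} (hu : u ∈ Bn b i) :
    ⁅g, u⁆ ∈ Bn b i := by
  rw [commutatorElement_def]
  exact mul_mem (h.conj_mem hi g hu) (inv_mem hu)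

theorem exists_pow (h : Adapted p e b) (hp : p.Prime) {i : ℕ} (hi : i < e) {u : P}
    (hu : u ∈ Bn b (i + 1)) : ∃ s : ℕ, ∃ u' ∈ Bn b i, b i ^ s * u' = u := by
  have hn := h.normal hi.le
  rw [Bn_succ, mem_sup_of_normal_right] at hu
  obtain ⟨y, hy, z, hz, rfl⟩ := hu
  have hfin : IsOfFinOrder (b i) := by
    rw [isOfFinOrder_iff_pow_eq_one]
    exact ⟨p, hp.pos, h.exp _ (mem_Bn hi)⟩
  rw [← hfin.mem_powers_iff_mem_zpowers] at hy
  obtain ⟨s, rfl⟩ := hy
  exact ⟨s, z, hz, rfl⟩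

theorem notMem_pow (h : Adapted p e b) (hp : p.Prime) {i : ℕ} (hi : i ≤ e) {r : P}
    (hr : r ∈ Bn b e) (hr' : r ∉ Bn b i) {t : ℕ} (ht : ¬ p ∣ t) : r ^ t ∉ Bn b i := by
  intro hmem
  apply hr'
  have hcop : Nat.Coprime t p := (hp.coprime_iff_not_dvd.2 ht).symm
  have h1 : r ^ p ∈ Bn b i := by rw [h.exp r hr]; exact one_mem _
  have h2 : (r ^ ((Nat.gcd t p : ℕ) : ℤ)) = r := by rw [hcop]; simp
  rw [← h2, Nat.gcd_eq_gcd_ab, zpow_add, zpow_mul, zpow_mul, zpow_natCast, zpow_natCast]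
  exact mul_mem (zpow_mem hmem _) (zpow_mem h1 _)

theorem exists_quot (h : Adapted p e b) (hp : p.Prime) {i : ℕ} (hi : i < e) {u v : P}
    (hu : u ∈ Bn b (i + 1)) (hv : v ∈ Bn b (i + 1)) (hv' : v ∉ Bn b i) :
    ∃ c : ℕ, (v ^ c)⁻¹ * u ∈ Bn b i := by
  obtain ⟨s, u', hu', rfl⟩ := h.exists_pow hp hi hu
  obtain ⟨t, v', hv2, rfl⟩ := h.exists_pow hp hi hv
  have hbi : b i ∈ Bn b e := mem_Bn hi
  have hle := Bn_mono (b := b) hi.le
  have ht : ¬ p ∣ t := by
    rintro ⟨k, rfl⟩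
    apply hv'
    rw [pow_mul, h.exp _ hbi, one_pow, one_mul]
    exact hv2
  -- solve c t = s mod p
  have hcop : Nat.Coprime t p := (hp.coprime_iff_not_dvd.2 ht).symm
  obtain ⟨c, hc⟩ : ∃ c : ℕ, c * t ≡ s [MOD p] := by
    have : Fact p.Prime := ⟨hp⟩
    refine ⟨((s : ZMod p) * (t : ZMod p)⁻¹).val, ?_⟩
    rw [← ZMod.natCast_eq_natCast_iff, Nat.cast_mul, ZMod.natCast_zmod_val, mul_assoc,
      inv_mul_cancel₀, mul_one]
    rw [Ne, ZMod.natCast_eq_zero_iff]
    exact ht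
  refine ⟨c, ?_⟩
  have hcomm : Commute (b i ^ t) v' := h.comm _ (pow_mem hbi t) _ (hle hv2)
  rw [hcomm.mul_pow, ← pow_mul, mul_comm t c]
  have hpow : b i ^ (c * t) = b i ^ s := by
    have h1 : orderOf (b i) ∣ p := orderOf_dvd_of_pow_eq_one (h.exp _ hbi)
    exact pow_eq_pow_iff_modEq.2 (hc.of_dvd h1)
  rw [hpow]
  have hc2 : Commute (b i ^ s) (v' ^ c) := h.comm _ (pow_mem hbi s) _ (pow_mem (hle hv2) c)
  rw [hc2.eq, mul_inv_rev, mul_assoc, ← mul_assoc (v' ^ c)⁻¹]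
  have hc3 : Commute (b i ^ s)⁻¹ (v' ^ c)⁻¹ := (hc2).inv_inv
  rw [← mul_assoc, ← mul_assoc, hc3.eq]
  have : (v' ^ c)⁻¹ * (b i ^ s)⁻¹ * b i ^ s * u' = (v' ^ c)⁻¹ * u' := by group
  rw [this]
  exact mul_mem (inv_mem (pow_mem hv2 c)) hu'

/-- level sets -/
def Lv (b : ℕ → P) (j i : ℕ) (h : P) : Prop := (∀ l < j, ⁅h, b l⁆ = 1) ∧ ⁅h, b j⁆ ∈ Bn b i

theorem fix_of {j : ℕ} {g : P} (hg : ∀ l < j, ⁅g, b l⁆ = 1) {u : P}
    (hu : u ∈ Bn b j) : g * u = u * g := by
  have h1 : Bn b j ≤ centralizer {g} := by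
    rw [Bn, closure_le]
    rintro _ ⟨l, hl, rfl⟩
    rw [SetLike.mem_coe, mem_centralizer_singleton_iff]
    exact (commutatorElement_eq_one_iff_mul_comm.1 (hg l hl)).symm
  exact ((mem_centralizer_singleton_iff.1 (h1 hu))).symm

theorem comm_mul (h : Adapted p e b) {j : ℕ} (hj : j < e) {g g' : P}
    (hg : ∀ l < j, ⁅g, b l⁆ = 1) : ⁅g * g', b j⁆ = ⁅g', b j⁆ * ⁅g, b j⁆ := by
  have h1 : g * ⁅g', b j⁆ = ⁅g', b j⁆ * g := fix_of hg (h.stab j hj g')
  have h2 : ⁅g * g', b j⁆ = g * ⁅g', b j⁆ * b j * g⁻¹ * (b j)⁻¹ := by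
    rw [commutatorElement_def, commutatorElement_def]; group
  rw [h2, h1, commutatorElement_def g]; group

theorem Lv_mul (h : Adapted p e b) {j i : ℕ} (hj : j < e) {g g' : P}
    (hg : Lv b j i g) (hg' : Lv b j i g') : Lv b j i (g * g') := by
  constructor
  · intro l hl
    have h1 := commutatorElement_eq_one_iff_mul_comm.1 (hg.1 l hl)
    have h2 := commutatorElement_eq_one_iff_mul_comm.1 (hg'.1 l hl)
    rw [commutatorElement_eq_one_iff_mul_comm, mul_assoc, h2, ← mul_assoc, h1, mul_assoc]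
  · rw [h.comm_mul hj hg.1]
    exact mul_mem hg'.2 hg.2

theorem Lv_inv (h : Adapted p e b) {j i : ℕ} (hj : j < e) {g : P}
    (hg : Lv b j i g) : Lv b j i g⁻¹ := by
  have h0 : ∀ l < j, ⁅g⁻¹, b l⁆ = 1 := by
    intro l hl
    have h1 : Commute g (b l) := commutatorElement_eq_one_iff_mul_comm.1 (hg.1 l hl)
    exact commutatorElement_eq_one_iff_mul_comm.2 h1.inv_left
  refine ⟨h0, ?_⟩
  have h1 := h.comm_mul hj (g' := g⁻¹) hg.1
  rw [mul_inv_cancel, commutatorElement_one_left] at h1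
  rw [eq_inv_of_mul_eq_one_left h1.symm]
  exact inv_mem hg.2

theorem Lv_pow (h : Adapted p e b) {j i : ℕ} (hj : j < e) {g : P}
    (hg : Lv b j i g) (n : ℕ) : Lv b j i (g ^ n) ∧ ⁅g ^ n, b j⁆ = ⁅g, b j⁆ ^ n := by
  induction n with
  | zero =>
    rw [pow_zero, pow_zero, commutatorElement_one_left]
    exact ⟨⟨fun l _ => commutatorElement_one_left _, by rw [commutatorElement_one_left]; exact one_mem _⟩, rfl⟩
  | succ n ih =>
    rw [pow_succ]
    refine ⟨h.Lv_mul hj ih.1 hg, ?_⟩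
    rw [h.comm_mul hj ih.1.1, ih.2, pow_succ']

/-- the leading position of a commutator -/
theorem Lv_comm (h : Adapted p e b) (hp : p.Prime) {i m j : ℕ} (him : i < m) (hmj : m < j)
    (hj : j < e) {x y : P} (hx : Lv b m (i + 1) x) (hx' : ⁅x, b m⁆ ∉ Bn b i)
    (hy : Lv b j (m + 1) y) (hy' : ⁅y, b j⁆ ∉ Bn b m) :
    Lv b j (i + 1) ⁅x, y⁆ ∧ ⁅⁅x, y⁆, b j⁆ ∉ Bn b i := by
  have hfy : ∀ {u : P}, u ∈ Bn b j → y * u = u * y := fun {u} hu => fix_of hy.1 hu
  have hfy' : ∀ {u : P}, u ∈ Bn b j → y⁻¹ * u = u * y⁻¹ := fun {u} hu =>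
    ((show Commute y u from hfy hu).inv_left).eq
  have hc1 : ∀ l < j, ⁅⁅x, y⁆, b l⁆ = 1 := by
    intro l hl
    rw [commutatorElement_eq_one_iff_mul_comm, commutatorElement_def]
    have hu : b l ∈ Bn b j := mem_Bn hl
    have hu2 : x⁻¹ * b l * x ∈ Bn b j := by
      have := h.conj_mem hj.le x⁻¹ hu
      rwa [inv_inv] at this
    calc x * y * x⁻¹ * y⁻¹ * b l = x * y * x⁻¹ * (y⁻¹ * b l) := by group
      _ = x * y * x⁻¹ * (b l * y⁻¹) := by rw [hfy' hu]
      _ = x * (y * (x⁻¹ * b l * x)) * x⁻¹ * y⁻¹ := by group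
      _ = x * ((x⁻¹ * b l * x) * y) * x⁻¹ * y⁻¹ := by rw [hfy hu2]
      _ = b l * (x * y * x⁻¹ * y⁻¹) := by group
  set w := ⁅y, b j⁆ with hw
  have hwB : w ∈ Bn b (m + 1) := hy.2
  have hwj : w ∈ Bn b j := Bn_mono hmj hwB
  have hyb : y * b j * y⁻¹ = w * b j := by rw [hw, commutatorElement_def]; group
  have hyb' : y⁻¹ * b j * y = w⁻¹ * b j := by
    have h1 : b j = y⁻¹ * (w * b j) * y := by rw [← hyb]; group
    have h2 : y⁻¹ * (w * b j) * y = w * (y⁻¹ * b j * y) := by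
      rw [← mul_assoc, hfy' hwj]; group
    rw [h2] at h1
    rw [eq_inv_mul_iff_mul_eq]
    exact h1.symm
  set v := ⁅x⁻¹, b j⁆ with hv
  have hvB : v ∈ Bn b j := h.stab j hj x⁻¹
  have hxb : x⁻¹ * b j * x = v * b j := by rw [hv, commutatorElement_def]; group
  set a := x⁻¹ * w⁻¹ * x with ha
  have haB : a ∈ Bn b j := by
    have := h.conj_mem hj.le x⁻¹ (inv_mem hwj)
    rwa [inv_inv] at this
  have hle : Bn b j ≤ Bn b e := Bn_mono hj.le
  have hmain : ⁅⁅x, y⁆, b j⁆ = ⁅x, w⁆ := by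
    have h1 : x * y * x⁻¹ * y⁻¹ * b j * (x * y * x⁻¹ * y⁻¹)⁻¹ = x * (a * v * w * b j) * x⁻¹ := by
      calc x * y * x⁻¹ * y⁻¹ * b j * (x * y * x⁻¹ * y⁻¹)⁻¹
          = x * y * (x⁻¹ * (y⁻¹ * b j * y) * x) * y⁻¹ * x⁻¹ := by group
        _ = x * y * (x⁻¹ * (w⁻¹ * b j) * x) * y⁻¹ * x⁻¹ := by rw [hyb']
        _ = x * y * ((x⁻¹ * w⁻¹ * x) * (x⁻¹ * b j * x)) * y⁻¹ * x⁻¹ := by group
        _ = x * y * (a * (v * b j)) * y⁻¹ * x⁻¹ := by rw [hxb]
        _ = x * (y * (a * v) * b j) * y⁻¹ * x⁻¹ := by group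
        _ = x * ((a * v) * y * b j) * y⁻¹ * x⁻¹ := by rw [hfy (mul_mem haB hvB)]
        _ = x * ((a * v) * (y * b j * y⁻¹)) * x⁻¹ := by group
        _ = x * (a * v * w * b j) * x⁻¹ := by rw [hyb]; group
    have h2 : x * (a * v * w * b j) * x⁻¹ = ⁅x, w⁆ * b j := by
      have h3 : v * w = w * v := h.comm _ (hle hvB) _ (hle hwj)
      have hxw : x * w * x⁻¹ ∈ Bn b j := h.conj_mem hj.le x hwj
      calc x * (a * v * w * b j) * x⁻¹ = x * (a * (v * w) * b j) * x⁻¹ := by group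
        _ = x * (a * (w * v) * b j) * x⁻¹ := by rw [h3]
        _ = (x * a * x⁻¹) * (x * w * x⁻¹) * (x * (v * b j) * x⁻¹) := by group
        _ = w⁻¹ * (x * w * x⁻¹) * b j := by rw [← hxb, ha]; group
        _ = (x * w * x⁻¹) * w⁻¹ * b j := by
            rw [h.comm _ (hle (inv_mem hwj)) _ (hle hxw)]
        _ = ⁅x, w⁆ * b j := by rw [commutatorElement_def]
    rw [commutatorElement_def ⁅x, y⁆, commutatorElement_def x y, h1, h2]; group
  -- now compute with w
  have hme : m < e := hmj.trans hj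
  obtain ⟨t, w', hw', hww⟩ := h.exists_pow hp hme hwB
  have hbm : b m ∈ Bn b e := mem_Bn hme
  have ht : ¬ p ∣ t := by
    rintro ⟨k, rfl⟩
    apply hy'
    rw [← hww, pow_mul, h.exp _ hbm, one_pow, one_mul]
    exact hw'
  have hxw' : x * w' = w' * x := fix_of hx.1 hw'
  have hr : ⁅x, b m⁆ ∈ Bn b (i + 1) := hx.2
  have hre : ⁅x, b m⁆ ∈ Bn b e := Bn_mono (by omega) hr
  have hxw : ⁅x, w⁆ = ⁅x, b m⁆ ^ t := by
    have h3 : x * b m * x⁻¹ = ⁅x, b m⁆ * b m := by rw [commutatorElement_def]; group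
    have h4 : x * (b m ^ t) * x⁻¹ = ⁅x, b m⁆ ^ t * b m ^ t := by
      rw [← conj_pow, h3, (show Commute ⁅x, b m⁆ (b m) from h.comm _ hre _ hbm).mul_pow]
    rw [← hww, commutatorElement_def]
    calc x * (b m ^ t * w') * x⁻¹ * (b m ^ t * w')⁻¹
        = x * b m ^ t * x⁻¹ * (x * w') * x⁻¹ * (b m ^ t * w')⁻¹ := by group
      _ = x * b m ^ t * x⁻¹ * (w' * x) * x⁻¹ * (b m ^ t * w')⁻¹ := by rw [hxw']
      _ = (x * b m ^ t * x⁻¹) * (b m ^ t)⁻¹ := by group
      _ = ⁅x, b m⁆ ^ t := by rw [h4]; group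
  refine ⟨⟨hc1, ?_⟩, ?_⟩
  · rw [hmain, hxw]; exact pow_mem hr t
  · rw [hmain, hxw]; exact h.notMem_pow hp (by omega) hre hx' ht


theorem card_succ (h : Adapted p e b) (hp : p.Prime) {i : ℕ} (hi : i < e) :
    Nat.card (Bn b (i + 1)) = p * Nat.card (Bn b i) := by
  have hbi : b i ∈ Bn b e := mem_Bn hi
  let f : Fin p × Bn b i → Bn b (i + 1) := fun x =>
    ⟨b i ^ (x.1 : ℕ) * x.2, mul_mem (pow_mem (mem_Bn (Nat.lt_succ_self i)) _)
      (Bn_mono (Nat.le_succ i) x.2.2)⟩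
  have hf : Function.Bijective f := by
    constructor
    · have key : ∀ (s t : Fin p) (u v : Bn b i), (s : ℕ) ≤ t → f (s, u) = f (t, v) → (s, u) = (t, v) := by
        rintro s t u v hst heq
        have h1 : b i ^ (s : ℕ) * (u : P) = b i ^ (t : ℕ) * (v : P) := congrArg Subtype.val heq
        have h2 : b i ^ ((t : ℕ) - s) = (u : P) * (v : P)⁻¹ := by
          have h3 : b i ^ (t : ℕ) = b i ^ (s : ℕ) * b i ^ ((t : ℕ) - s) := by
            rw [← pow_add, Nat.add_sub_cancel' hst]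
          rw [h3, mul_assoc] at h1
          rw [mul_left_cancel h1]; group
        have h3 : b i ^ ((t : ℕ) - s) ∈ Bn b i := by
          rw [h2]; exact mul_mem u.2 (inv_mem v.2)
        have h4 : p ∣ (t : ℕ) - s := by
          by_contra hnd
          exact h.notMem_pow hp hi.le hbi (h.notMem i hi) hnd h3
        have h5 : (t : ℕ) - s = 0 := Nat.eq_zero_of_dvd_of_lt h4 (by omega)
        have h6 : s = t := Fin.ext (by omega)
        subst h6
        have h7 := mul_left_cancel h1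
        exact congrArg _ (Subtype.ext h7)
      rintro ⟨s, u⟩ ⟨t, v⟩ heq
      rcases le_total (s : ℕ) t with hst | hst
      · exact key s t u v hst heq
      · exact (key t s v u hst heq.symm).symm
    · rintro ⟨u, hu⟩
      obtain ⟨s, u', hu', rfl⟩ := h.exists_pow hp hi hu
      refine ⟨(⟨s % p, Nat.mod_lt _ hp.pos⟩, ⟨u', hu'⟩), ?_⟩
      apply Subtype.ext
      show b i ^ (s % p) * u' = b i ^ s * u'
      rw [← pow_eq_pow_mod _ (h.exp _ hbi)]
  rw [← Nat.card_congr (Equiv.ofBijective f hf), Nat.card_prod, Nat.card_fin]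

theorem card_Bn (h : Adapted p e b) (hp : p.Prime) {i : ℕ} (hi : i ≤ e) :
    Nat.card (Bn b i) = p ^ i := by
  induction i with
  | zero => rw [Bn_zero, Subgroup.card_bot, pow_zero]
  | succ i ih => rw [h.card_succ hp (by omega), ih (by omega), pow_succ']

end Adapted

/-- existence of adapted sequences -/
theorem exists_adapted [Finite P] {p : ℕ} [hpf : Fact p.Prime] (hP : IsPGroup p P) (B : Subgroup P) (hB : B.Normal)
    (hBc : ∀ u ∈ B, ∀ v ∈ B, u * v = v * u) (hBe : ∀ u ∈ B, u ^ p = 1) {e : ℕ}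
    (he : Nat.card B = p ^ e) : ∃ b : ℕ → P, Adapted p e b ∧ Bn b e = B := by
  have hp := hpf.out
  have key : ∀ k ≤ e, ∃ b : ℕ → P, Adapted p k b ∧ Bn b k ≤ B := by
    intro k
    induction k with
    | zero =>
      intro _
      refine ⟨fun _ => 1, ⟨?_, ?_, ?_, ?_⟩, ?_⟩
      · intro u hu v hv
        rw [Bn_zero, mem_bot] at hu hv
        rw [hu, hv]
      · intro u hu
        rw [Bn_zero, mem_bot] at hu
        rw [hu, one_pow]
      · intro l hl; omega
      · intro l hl; omega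
      · rw [Bn_zero]; exact bot_le
    | succ k ih =>
      intro hk
      obtain ⟨b, hb, hbB⟩ := ih (by omega)
      have hN : (Bn b k).Normal := hb.normal le_rfl
      have hcard := hb.card_Bn hp le_rfl
      have hnil : Group.IsNilpotent (P ⧸ Bn b k) := (hP.to_quotient _).isNilpotent
      have hBm : (B.map (QuotientGroup.mk' (Bn b k))).Normal :=
        hB.map _ (QuotientGroup.mk'_surjective _)
      have hBne : B.map (QuotientGroup.mk' (Bn b k)) ≠ ⊥ := by
        intro h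
        rw [Subgroup.map_eq_bot_iff, QuotientGroup.ker_mk'] at h
        have h1 : Bn b k = B := le_antisymm hbB h
        rw [h1, he] at hcard
        have := Nat.pow_right_injective hp.two_le hcard
        omega
      have hmeet := Solv.inf_center_ne_bot_of_nilpotent (B.map (QuotientGroup.mk' (Bn b k))) hBne
      obtain ⟨z', hz', hz1⟩ := (Subgroup.bot_or_exists_ne_one _).resolve_left hmeet
      obtain ⟨⟨z, hzB, rfl⟩, hzc⟩ := hz'
      have hzN : z ∉ Bn b k := by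
        intro h
        exact hz1 ((QuotientGroup.eq_one_iff z).2 h)
      have hzg : ∀ g : P, ⁅g, z⁆ ∈ Bn b k := by
        intro g
        rw [← QuotientGroup.eq_one_iff, commutatorElement_def, QuotientGroup.mk_mul, QuotientGroup.mk_mul,
          QuotientGroup.mk_mul, QuotientGroup.mk_inv, QuotientGroup.mk_inv]
        have h1 := Subgroup.mem_center_iff.1 hzc (g : P ⧸ Bn b k)
        have h2 : (g : P ⧸ Bn b k) * (z : P ⧸ Bn b k) = (z : P ⧸ Bn b k) * (g : P ⧸ Bn b k) := h1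
        rw [h2]; group
      let b' := Function.update b k z
      have hb'l : ∀ l < k, b' l = b l := fun l hl => Function.update_of_ne (by omega) _ _
      have hb'k : b' k = z := Function.update_self _ _ _
      have hBnl : ∀ i ≤ k, Bn b' i = Bn b i := fun i hi => Bn_congr fun l hl => hb'l l (by omega)
      have hle : Bn b' (k + 1) ≤ B := by
        rw [Bn_succ, hb'k, hBnl k le_rfl, sup_le_iff, zpowers_le]
        exact ⟨hzB, hbB⟩
      refine ⟨b', ⟨?_, ?_, ?_, ?_⟩, hle⟩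
      · intro u hu v hv; exact hBc u (hle hu) v (hle hv)
      · intro u hu; exact hBe u (hle hu)
      · intro l hl g
        rw [hBnl l (by omega)]
        rcases Nat.lt_succ_iff_lt_or_eq.1 hl with h | rfl
        · rw [hb'l l h]; exact hb.stab l h g
        · rw [hb'k]; exact hzg g
      · intro l hl
        rw [hBnl l (by omega)]
        rcases Nat.lt_succ_iff_lt_or_eq.1 hl with h | rfl
        · rw [hb'l l h]; exact hb.notMem l h
        · rw [hb'k]; exact hzN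
  obtain ⟨b, hb, hle⟩ := key e le_rfl
  exact ⟨b, hb, Subgroup.eq_of_le_of_card_ge hle (by rw [he, hb.card_Bn hp le_rfl])⟩

/-- Mantel: number of pairs -/
theorem mantel {e : ℕ} (E : Finset (Fin e × Fin e)) (hE : ∀ x ∈ E, x.1 < x.2)
    (htri : ∀ i m j : Fin e, (i, m) ∈ E → (m, j) ∈ E → (i, j) ∉ E) : E.card ≤ e * e / 4 := by
  classical
  let Γ : SimpleGraph (Fin e) :=
    { Adj := fun a b => (a, b) ∈ E ∨ (b, a) ∈ E
      symm := ⟨fun a b h => h.symm⟩
      loopless := ⟨fun a h => by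
        rcases h with h | h
        · exact lt_irrefl _ (hE _ h)
        · exact lt_irrefl _ (hE _ h)⟩ }
  have hcf : Γ.CliqueFree 3 := by
    intro s hs
    rw [SimpleGraph.is3Clique_iff] at hs
    obtain ⟨a, b, c, hab, hac, hbc, -⟩ := hs
    rcases hab with hab | hab <;> rcases hac with hac | hac <;> rcases hbc with hbc | hbc
    · exact htri a b c hab hbc hac
    · exact htri a c b hac hbc hab
    · exact absurd (hE _ hab) (by have h1 := hE _ hac; have h2 := hE _ hbc; simp only at *; omega)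
    · exact htri c a b hac hab hbc
    · exact htri b a c hab hac hbc
    · exact absurd (hE _ hab) (by have h1 := hE _ hac; have h2 := hE _ hbc; simp only at *; omega)
    · exact htri b c a hbc hac hab
    · exact htri c b a hbc hab hac
  have hle := SimpleGraph.CliqueFree.card_edgeFinset_le (r := 2) hcf
  simp only [Fintype.card_fin] at hle
  have hcard : E.card ≤ Γ.edgeFinset.card := by
    apply Finset.card_le_card_of_injOn (fun x => s(x.1, x.2))
    · intro x hx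
      rw [SimpleGraph.coe_edgeFinset, SimpleGraph.mem_edgeSet]
      exact Or.inl hx
    · rintro ⟨a, b⟩ hx ⟨c, d⟩ hy hxy
      have h1 : s(a, b) = s(c, d) := hxy
      rw [Sym2.eq_iff] at h1
      rcases h1 with ⟨rfl, rfl⟩ | ⟨rfl, rfl⟩
      · rfl
      · exact absurd (hE _ hx) (not_lt.2 (hE _ hy).le)
  refine le_trans hcard (le_trans hle ?_)
  rcases Nat.even_or_odd' e with ⟨k, rfl | rfl⟩
  · have h1 : 2 * k % 2 = 0 := by omega
    rw [h1]
    have h2 : (2 * k) ^ 2 = 4 * (k * k) := by ring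
    have h3 : 2 * k * (2 * k) = 4 * (k * k) := by ring
    rw [h2, h3]
    simp
  · have h1 : (2 * k + 1) % 2 = 1 := by omega
    rw [h1]
    have h2 : (2 * k + 1) ^ 2 = 4 * (k * k + k) + 1 := by ring
    have h3 : (2 * k + 1) * (2 * k + 1) = 4 * (k * k + k) + 1 := by ring
    rw [h2, h3]
    simp only [one_pow, Nat.add_sub_cancel, Nat.reduceSub, mul_one, Nat.reduceMul]
    have h4 : Nat.choose 1 2 = 0 := rfl
    rw [h4]
    omega


def Jmp (b : ℕ → P) (H : Subgroup P) (i j : ℕ) : Prop :=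
  ∃ g ∈ H, Adapted.Lv b j (i + 1) g ∧ ⁅g, b j⁆ ∉ Bn b i

theorem gen_mod_centralizer {p e : ℕ} {b : ℕ → P} (h : Adapted p e b) (hp : p.Prime) (H : Subgroup P) :
    ∃ S : Finset P, (S : Set P) ⊆ H ∧ S.card ≤ e * e / 4 ∧
      H ≤ closure (S : Set P) ⊔ ⁅H, H⁆ ⊔ (H ⊓ centralizer (Bn b e : Set P)) := by
  classical
  let E : Finset (Fin e × Fin e) := Finset.univ.filter (fun x => x.1 < x.2 ∧ Jmp b H x.1 x.2 ∧
    ¬ ∃ m : Fin e, x.1 < m ∧ m < x.2 ∧ Jmp b H x.1 m ∧ Jmp b H m x.2)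
  have hEcard : E.card ≤ e * e / 4 := by
    apply mantel
    · intro x hx
      exact (Finset.mem_filter.1 hx).2.1
    · intro i m j him hmj hij
      have h1 := (Finset.mem_filter.1 him).2
      have h2 := (Finset.mem_filter.1 hmj).2
      have h3 := (Finset.mem_filter.1 hij).2
      exact h3.2.2 ⟨m, h1.1, h2.1, h1.2.1, h2.2.1⟩
  let f : Fin e × Fin e → P := fun x => if hx : Jmp b H x.1 x.2 then hx.choose else 1
  have hf : ∀ x, Jmp b H x.1 x.2 → f x ∈ H ∧ Adapted.Lv b x.2 (x.1 + 1) (f x) ∧ ⁅f x, b x.2⁆ ∉ Bn b x.1 := by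
    intro x hx
    have h1 : f x = hx.choose := dif_pos hx
    rw [h1]
    exact hx.choose_spec
  refine ⟨E.image f, ?_, Finset.card_image_le.trans hEcard, ?_⟩
  · intro y hy
    rw [Finset.mem_coe, Finset.mem_image] at hy
    obtain ⟨x, hx, rfl⟩ := hy
    exact (hf x (Finset.mem_filter.1 hx).2.2.1).1
  set K := closure ((E.image f : Finset P) : Set P) ⊔ ⁅H, H⁆ ⊔ (H ⊓ centralizer (Bn b e : Set P)) with hK
  -- downward induction
  have hQ : ∀ n j, j + n = e → ∀ g ∈ H, (∀ l < j, ⁅g, b l⁆ = 1) → g ∈ K := by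
    intro n
    induction n with
    | zero =>
      intro j hj g hg hgl
      apply (le_sup_right : H ⊓ centralizer (Bn b e : Set P) ≤ K)
      refine ⟨hg, mem_centralizer_iff.2 fun u hu => ?_⟩
      have hje : j = e := by omega
      subst hje
      exact (Adapted.fix_of hgl hu).symm
    | succ n ih =>
      intro j hj g hg hgl
      have hje : j < e := by omega
      have hR : ∀ i ≤ j, ∀ g ∈ H, Adapted.Lv b j i g → g ∈ K := by
        intro i
        induction i with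
        | zero =>
          intro _ g hg hgL
          apply ih (j + 1) (by omega) g hg
          intro l hl
          rcases Nat.lt_succ_iff_lt_or_eq.1 hl with h1 | rfl
          · exact hgL.1 l h1
          · have h2 := hgL.2
            rw [Bn_zero, mem_bot] at h2
            exact h2
        | succ i ihi =>
          intro hij g hg hgL
          by_cases hgi : ⁅g, b j⁆ ∈ Bn b i
          · exact ihi (by omega) g hg ⟨hgL.1, hgi⟩
          · have hJ : Jmp b H i j := ⟨g, hg, hgL, hgi⟩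
            have hie : i < e := by omega
            obtain ⟨g₀, hg₀H, hg₀K, hg₀L, hg₀i⟩ : ∃ g₀ ∈ H, g₀ ∈ K ∧ Adapted.Lv b j (i + 1) g₀ ∧
                ⁅g₀, b j⁆ ∉ Bn b i := by
              by_cases hm : ∃ m : Fin e, i < m ∧ m < j ∧ Jmp b H i m ∧ Jmp b H m j
              · obtain ⟨m, him, hmj, ⟨x, hx, hxL, hxi⟩, ⟨y, hy, hyL, hyi⟩⟩ := hm
                have hc := h.Lv_comm hp him hmj hje hxL hxi hyL hyi
                refine ⟨⁅x, y⁆, ?_, ?_, hc.1, hc.2⟩
                · rw [commutatorElement_def]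
                  exact mul_mem (mul_mem (mul_mem hx hy) (inv_mem hx)) (inv_mem hy)
                · exact (le_sup_right.trans le_sup_left : ⁅H, H⁆ ≤ K) (commutator_mem_commutator hx hy)
              · have hxE : ((⟨i, hie⟩, ⟨j, hje⟩) : Fin e × Fin e) ∈ E := by
                  rw [Finset.mem_filter]
                  exact ⟨Finset.mem_univ _, by show i < j; omega, hJ, hm⟩
                have h1 := hf (⟨i, hie⟩, ⟨j, hje⟩) hJ
                refine ⟨f (⟨i, hie⟩, ⟨j, hje⟩), h1.1, ?_, h1.2.1, h1.2.2⟩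
                exact (le_sup_left.trans le_sup_left : closure ((E.image f : Finset P) : Set P) ≤ K)
                  (subset_closure (Finset.mem_coe.2 (Finset.mem_image_of_mem f hxE)))
            obtain ⟨c, hc⟩ := h.exists_quot hp hie hgL.2 hg₀L.2 hg₀i
            have hpow := h.Lv_pow hje hg₀L c
            have hinv := h.Lv_inv hje hpow.1
            have h2 : ⁅(g₀ ^ c)⁻¹, b j⁆ = (⁅g₀, b j⁆ ^ c)⁻¹ := by
              have h3 := h.comm_mul hje (g' := (g₀ ^ c)⁻¹) hpow.1.1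
              rw [mul_inv_cancel, commutatorElement_one_left, hpow.2] at h3
              exact eq_inv_of_mul_eq_one_left h3.symm
            have h4 : g * (g₀ ^ c)⁻¹ ∈ K := by
              apply ihi (by omega) _ (mul_mem hg (inv_mem (pow_mem hg₀H c)))
              refine ⟨(h.Lv_mul hje hgL hinv).1, ?_⟩
              rw [h.comm_mul hje hgL.1, h2]
              exact hc
            have h5 : g = g * (g₀ ^ c)⁻¹ * g₀ ^ c := by group
            rw [h5]
            exact mul_mem h4 (pow_mem hg₀K c)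
      exact hR j le_rfl g hg ⟨hgl, h.stab j hje g⟩
  intro g hg
  exact hQ e 0 (by omega) g hg (fun l hl => absurd hl (Nat.not_lt_zero l))

end Cfsg.Agent.H94.LeadPos
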