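import Cfsg.Agent.OddP.RankTwo
import Cfsg.Agent.OddP.Class3
import Cfsg.Agent.Solv.Frattini

set_option autoImplicit false
open Subgroup
open scoped commutatorElement

namespace Cfsg.Agent.H94.PCentral

universe u

section
variable {G : Type*} [Group G]

theorem comm_pow_eq_one [Finite G] {p : ℕ} [hpf : Fact p.Prime] (hp2 : p ≠ 2) (hG : IsPGroup p G)
    (hc : ∀ z : G, z ^ p = 1 → z ∈ center G) {x : G} (hx : x ^ p ∈ center G) (g : G) :
    ⁅x, g⁆ ^ p = 1 := by
  let y : ℕ → G := fun k => Nat.rec g (fun _ a => ⁅x, a⁆) k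
  have hy0 : y 0 = g := rfl
  have hys : ∀ k, y (k + 1) = ⁅x, y k⁆ := fun k => rfl
  have hmem : ∀ k, y k ∈ (⊤ : Subgroup G).lowerCentralSeries k := by
    intro k
    induction k with
    | zero => simp
    | succ k ih =>
      rw [hys, Subgroup.lowerCentralSeries_succ]
      rw [← inv_mem_iff, commutatorElement_inv]
      exact Subgroup.subset_closure ⟨y k, ih, x, trivial, rfl⟩
  have hnil : Group.IsNilpotent G := hG.isNilpotent
  obtain ⟨n, hn⟩ := Subgroup.nilpotent_iff_lowerCentralSeries.1 hnil
  have key : ∀ m k, 1 ≤ k → k + m = n → y k ^ p = 1 := by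
    intro m
    induction m with
    | zero =>
      intro k _ hk
      have h1 := hmem k
      rw [show k = n by omega, hn, Subgroup.mem_bot] at h1
      rw [show k = n by omega, h1, one_pow]
    | succ m ih =>
      intro k hk1 hk
      have h1 := ih (k + 1) (by omega) (by omega)
      rw [hys] at h1
      obtain ⟨j, rfl⟩ : ∃ j, k = j + 1 := ⟨k - 1, by omega⟩
      set a := y (j + 1) with ha
      have hcen := hc _ h1
      have hcc : ∀ w, ⁅x, a⁆ * w = w * ⁅x, a⁆ := fun w => ((Subgroup.mem_center_iff.1 hcen) w).symm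
      have hrel : x * a⁻¹ = a⁻¹ * x * (⁅x, a⁆)⁻¹ := by
        have hci : (⁅x, a⁆)⁻¹ * x = x * (⁅x, a⁆)⁻¹ :=
          (show Commute (⁅x, a⁆)⁻¹ x from (show Commute ⁅x, a⁆ x from hcc x).inv_left)
        rw [mul_assoc, ← hci, commutatorElement_def]
        group
      have hz : ((⁅x, a⁆)⁻¹) ^ p = 1 := by rw [inv_pow, h1, inv_one]
      have h2 := OddP.mul_pow_p_class2 hpf.out hp2 hrel
        (show Commute (⁅x, a⁆)⁻¹ a⁻¹ from (show Commute ⁅x, a⁆ a from hcc a).inv_inv)
        (show Commute (⁅x, a⁆)⁻¹ x from (show Commute ⁅x, a⁆ x from hcc x).inv_left) hz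
      have h3 : a⁻¹ * x = y j * x * (y j)⁻¹ := by
        rw [ha, hys, commutatorElement_def]; group
      have h4 : (a⁻¹ * x) ^ p = x ^ p := by
        rw [h3, conj_pow, (Subgroup.mem_center_iff.1 hx) (y j), mul_inv_cancel_right]
      rw [h4] at h2
      have h5 : (a⁻¹) ^ p = 1 := right_eq_mul.1 h2
      rw [inv_pow, inv_eq_one] at h5
      exact h5
  by_cases hn0 : 1 ≤ n
  · have := key (n - 1) 1 le_rfl (by omega)
    exact this
  · have h0 : n = 0 := by omega
    rw [h0] at hn
    have h1 : ⁅x, g⁆ ∈ (⊤ : Subgroup G).lowerCentralSeries 0 := by simp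
    rw [hn, Subgroup.mem_bot] at h1
    rw [h1, one_pow]

/-- the subgroup of elements of order dividing `p` -/
def Z1 (p : ℕ) (hc : ∀ z : G, z ^ p = 1 → z ∈ center G) : Subgroup G where
  carrier := {z | z ^ p = 1}
  one_mem' := one_pow p
  mul_mem' := by
    intro a b ha hb
    have hab : Commute a b := ((Subgroup.mem_center_iff.1 (hc a ha)) b).symm
    show (a * b) ^ p = 1
    rw [hab.mul_pow, show a ^ p = 1 from ha, show b ^ p = 1 from hb, one_mul]
  inv_mem' := by
    intro a ha
    show (a⁻¹) ^ p = 1
    rw [inv_pow, show a ^ p = 1 from ha, inv_one]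

theorem mem_Z1 {p : ℕ} (hc : ∀ z : G, z ^ p = 1 → z ∈ center G) {z : G} : z ∈ Z1 p hc ↔ z ^ p = 1 := Iff.rfl

end

theorem pcentral_gen {p : ℕ} [hpf : Fact p.Prime] (hp2 : p ≠ 2) : ∀ (n : ℕ) (G : Type u) [Group G]
    [Finite G], IsPGroup p G → (∀ z : G, z ^ p = 1 → z ∈ center G) → Nat.card G = n →
    ∃ S : Finset G, p ^ S.card ≤ Nat.card {z : G // z ^ p = 1} ∧ closure (S : Set G) = ⊤ := by
  classical
  intro n
  induction n using Nat.strong_induction_on with
  | _ n ih =>
  intro G _ _ hG hc hn
  have hZle : Z1 p hc ≤ center G := fun z hz => hc z hz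
  have hZn : (Z1 p hc).Normal := by
    constructor
    intro z hz g
    rw [(Subgroup.mem_center_iff.1 (hZle hz)) g, mul_inv_cancel_right]
    exact hz
  have hZcard : Nat.card (Z1 p hc) = Nat.card {z : G // z ^ p = 1} := rfl
  by_cases hcase : Z1 p hc ≤ frattini G
  · by_cases hG1 : Subsingleton G
    · refine ⟨∅, ?_, ?_⟩
      · simp only [Finset.card_empty, pow_zero]
        have : Nonempty {z : G // z ^ p = 1} := ⟨⟨1, one_pow p⟩⟩
        exact Nat.card_pos
      · exact Subsingleton.elim _ _
    · have hnt : Nontrivial G := not_subsingleton_iff_nontrivial.1 hG1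
      have hZ1 : Z1 p hc ≠ ⊥ := by
        obtain ⟨k, hk⟩ := IsPGroup.iff_card.1 hG
        have hk0 : k ≠ 0 := by
          rintro rfl
          rw [pow_zero] at hk
          have := Finite.one_lt_card (α := G)
          omega
        obtain ⟨z, hz⟩ := exists_prime_orderOf_dvd_card' (G := G) p (by rw [hk]; exact dvd_pow_self p hk0)
        intro h
        have hz1 : z ∈ Z1 p hc := by
          rw [mem_Z1, ← hz, pow_orderOf_eq_one]
        rw [h, Subgroup.mem_bot] at hz1
        rw [hz1, orderOf_one] at hz
        exact hpf.out.one_lt.ne hz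
      have hcardlt : Nat.card (G ⧸ Z1 p hc) < n := by
        have h1 := Subgroup.card_eq_card_quotient_mul_card_subgroup (Z1 p hc)
        have h2 : 1 < Nat.card (Z1 p hc) := by
          rw [Finite.one_lt_card_iff_nontrivial]
          exact (Subgroup.nontrivial_iff_ne_bot _).2 hZ1
        have h3 : 0 < Nat.card (G ⧸ Z1 p hc) := Nat.card_pos
        rw [hn] at h1
        nlinarith
      have hT : ∀ x : G, x ^ p ∈ Z1 p hc → ∀ g : G, ⁅x, g⁆ ∈ Z1 p hc := by
        intro x hx g
        exact comm_pow_eq_one hp2 hG hc (hZle hx) g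
      have hc' : ∀ z : G ⧸ Z1 p hc, z ^ p = 1 → z ∈ center (G ⧸ Z1 p hc) := by
        intro z
        induction z using QuotientGroup.induction_on with
        | H x =>
        intro hx
        rw [← QuotientGroup.mk_pow, QuotientGroup.eq_one_iff] at hx
        rw [Subgroup.mem_center_iff]
        intro g
        induction g using QuotientGroup.induction_on with
        | H g =>
        rw [← QuotientGroup.mk_mul, ← QuotientGroup.mk_mul, eq_comm, QuotientGroup.eq]
        have h1 := hT x hx g
        have h2 : (x * g)⁻¹ * (g * x) = ⁅g⁻¹, x⁻¹⁆ := by rw [commutatorElement_def]; group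
        rw [h2, ← inv_mem_iff, commutatorElement_inv]
        refine hT x⁻¹ ?_ g⁻¹
        rw [inv_pow]
        exact (Z1 p hc).inv_mem hx
      obtain ⟨S', hS'1, hS'2⟩ := ih _ hcardlt (G ⧸ Z1 p hc) (hG.to_quotient _) hc' rfl
      refine ⟨S'.image Quotient.out, ?_, ?_⟩
      · refine le_trans (Nat.pow_le_pow_right hpf.out.pos Finset.card_image_le) (le_trans hS'1 ?_)
        have hmk : ∀ z : G ⧸ Z1 p hc, (QuotientGroup.mk (Quotient.out z) : G ⧸ Z1 p hc) = z :=
          fun z => QuotientGroup.out_eq' z
        have hout : ∀ z : {z : G ⧸ Z1 p hc // z ^ p = 1}, (Quotient.out z.1) ^ p ∈ Z1 p hc := by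
          intro z
          have h1 := z.2
          rw [← hmk z.1, ← QuotientGroup.mk_pow, QuotientGroup.eq_one_iff] at h1
          exact h1
        let f : {z : G ⧸ Z1 p hc // z ^ p = 1} → {z : G // z ^ p = 1} := fun z =>
          ⟨(Quotient.out z.1) ^ p, hout z⟩
        apply Nat.card_le_card_of_injective f
        intro z w hzw
        have h1 : (Quotient.out z.1) ^ p = (Quotient.out w.1) ^ p := congrArg Subtype.val hzw
        set a := Quotient.out z.1 with ha
        set b := Quotient.out w.1 with hb
        have hb2 : b ^ p ∈ Z1 p hc := hout w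
        have h2 : ⁅b, a⁻¹⁆ ∈ Z1 p hc := hT b hb2 a⁻¹
        have hcen := hZle h2
        have hcc : ∀ w, ⁅b, a⁻¹⁆ * w = w * ⁅b, a⁻¹⁆ := fun w => ((Subgroup.mem_center_iff.1 hcen) w).symm
        have hrel : b⁻¹ * a = a * b⁻¹ * ⁅b, a⁻¹⁆ := by
          rw [commutatorElement_def]; group
        have h3 := OddP.mul_pow_p_class2 hpf.out hp2 hrel (hcc a) (hcc b⁻¹) h2
        rw [h1, inv_pow, mul_inv_cancel] at h3
        have h4 : a * b⁻¹ ∈ Z1 p hc := h3
        apply Subtype.ext
        rw [← hmk z.1, ← hmk w.1, ← ha, ← hb, eq_comm, QuotientGroup.eq]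
        have h5 := hZn.conj_mem _ h4 b⁻¹
        rw [inv_inv] at h5
        simpa [mul_assoc] using h5
      · have h1 : (closure ((S'.image Quotient.out : Finset G) : Set G)) ⊔ frattini G = ⊤ := by
          rw [eq_top_iff]
          intro g _
          have h2 : (QuotientGroup.mk g : G ⧸ Z1 p hc) ∈
              (closure ((S'.image Quotient.out : Finset G) : Set G)).map (QuotientGroup.mk' (Z1 p hc)) := by
            rw [MonoidHom.map_closure]
            have h3 : (QuotientGroup.mk' (Z1 p hc)) '' ((S'.image Quotient.out : Finset G) : Set G) =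
                (S' : Set (G ⧸ Z1 p hc)) := by
              rw [Finset.coe_image, Set.image_image]
              have : (fun x : G ⧸ Z1 p hc => (QuotientGroup.mk' (Z1 p hc)) (Quotient.out x)) = id := by
                funext x
                exact QuotientGroup.out_eq' x
              exact (congrArg (fun f => f '' (S' : Set (G ⧸ Z1 p hc))) this).trans (Set.image_id _)
            rw [h3, hS'2]
            trivial
          obtain ⟨k, hk, hk'⟩ := h2
          have h4 : k⁻¹ * g ∈ Z1 p hc := QuotientGroup.eq.1 hk'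
          have h5 : g = k * (k⁻¹ * g) := by group
          rw [h5]
          exact Subgroup.mul_mem_sup hk (hcase h4)
        exact frattini_nongenerating h1
  · -- a maximal subgroup not containing Z1
    have hM : ∃ M : Subgroup G, IsCoatom M ∧ ¬ Z1 p hc ≤ M := by
      by_contra hcon
      push Not at hcon
      apply hcase
      rw [frattini, Order.radical]
      exact le_iInf₂ fun M hM => hcon M hM
    obtain ⟨M, hMc, hMZ⟩ := hM
    obtain ⟨hMn, hMi⟩ := Solv.coatom_of_pGroup hG M hMc
    obtain ⟨z, hz, hzM⟩ := SetLike.not_le_iff_exists.1 hMZ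
    have hcM : ∀ w : M, w ^ p = 1 → w ∈ center M := by
      intro w hw
      rw [Subgroup.mem_center_iff]
      intro g
      have h1 : (w : G) ^ p = 1 := by exact_mod_cast congrArg Subtype.val hw
      exact Subtype.ext ((Subgroup.mem_center_iff.1 (hc _ h1)) g)
    have hcardM : Nat.card M < n := by
      rw [← hn]
      have h1 := M.card_mul_index
      rw [hMi] at h1
      have h2 : 0 < Nat.card M := Nat.card_pos
      have h3 := hpf.out.one_lt
      nlinarith
    obtain ⟨S', hS'1, hS'2⟩ := ih _ hcardM M (hG.to_subgroup M) hcM rfl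
    refine ⟨insert z (S'.image M.subtype), ?_, ?_⟩
    · have h1 : (insert z (S'.image M.subtype)).card ≤ S'.card + 1 :=
        (Finset.card_insert_le _ _).trans (Nat.add_le_add_right Finset.card_image_le 1)
      refine le_trans (Nat.pow_le_pow_right hpf.out.pos h1) ?_
      rw [pow_succ]
      refine le_trans (Nat.mul_le_mul_right p hS'1) ?_
      have h2 : Nat.card {w : M // w ^ p = 1} = Nat.card (Z1 p hc ⊓ M : Subgroup G) := by
        refine Nat.card_congr ⟨fun w => ⟨(w.1 : G), ?_, w.1.2⟩, fun w => ⟨⟨w.1, w.2.2⟩, ?_⟩,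
          fun w => rfl, fun w => rfl⟩
        · show (w.1 : G) ^ p = 1
          exact_mod_cast congrArg Subtype.val w.2
        · exact Subtype.ext w.2.1
      have h3 : M.relIndex (Z1 p hc) = p := by
        have h4 : Z1 p hc ⊔ M = ⊤ := by
          rcases hMc.le_iff.1 (le_sup_right : M ≤ Z1 p hc ⊔ M) with h | h
          · exact h
          · exfalso
            apply hMZ
            rw [← h]
            exact le_sup_left
        rw [← Subgroup.relIndex_sup_right, h4, Subgroup.relIndex_top_right, hMi]
      have h5 : Nat.card (Z1 p hc ⊓ M : Subgroup G) * M.relIndex (Z1 p hc) = Nat.card (Z1 p hc) := by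
        rw [inf_comm, ← Subgroup.inf_relIndex_right, ← Subgroup.relIndex_bot_left,
          ← Subgroup.relIndex_bot_left]
        exact Subgroup.relIndex_mul_relIndex _ _ _ bot_le inf_le_right
      rw [h2, ← hZcard, ← h5, h3]
    · have h1 : M ≤ closure ((insert z (S'.image M.subtype) : Finset G) : Set G) := by
        have h2 : M = closure ((S'.image M.subtype : Finset G) : Set G) := by
          rw [Finset.coe_image, ← MonoidHom.map_closure, hS'2, ← MonoidHom.range_eq_map, Subgroup.range_subtype]
        conv_lhs => rw [h2]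
        apply Subgroup.closure_mono
        rw [Finset.coe_insert]
        exact Set.subset_insert _ _
      rcases hMc.le_iff.1 h1 with h | h
      · exact h
      · exfalso
        apply hzM
        rw [← h]
        exact Subgroup.subset_closure (by simp)

end Cfsg.Agent.H94.PCentral
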